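import Mathlib

/-!
Intermediate subrings of a finite field extension of prime degree.
-/

set_option autoImplicit false

namespace Cfsg.Agent.H888.FieldDich

variable {F : Type*} [Field F] [Finite F]

/-- **No intermediate rings in an extension of prime degree of finite fields.** -/
theorem dichotomy (F₀ : Subfield F) {r : ℕ} (hr : r.Prime)
    (hcard : Nat.card F = Nat.card F₀ ^ r) (A : Set F) (h0 : ∀ c ∈ F₀, c ∈ A)
    (hadd : ∀ c ∈ A, ∀ d ∈ A, c + d ∈ A) (hmul : ∀ c ∈ A, ∀ d ∈ A, c * d ∈ A) :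
    (∀ c ∈ A, c ∈ F₀) ∨ (∀ c : F, c ∈ A) := by
  have hone : (1 : F) ∈ A := h0 _ F₀.one_mem
  have hpow : ∀ (c : F), c ∈ A → ∀ n : ℕ, c ^ n ∈ A := by
    intro c hc n
    induction n with
    | zero => simpa using hone
    | succ n ih => rw [pow_succ]; exact hmul _ ih _ hc
  have := Fintype.ofFinite F
  let K : Subfield F :=
    { carrier := A
      mul_mem' := fun {c d} hc hd => hmul c hc d hd
      one_mem' := hone
      add_mem' := fun {c d} hc hd => hadd c hc d hd
      zero_mem' := h0 _ F₀.zero_mem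
      neg_mem' := fun {c} hc => by
        have h1 : (-1 : F) * c ∈ A := hmul _ (h0 _ (F₀.neg_mem F₀.one_mem)) _ hc
        rwa [neg_one_mul] at h1
      inv_mem' := fun c hc => by
        by_cases hc0 : c = 0
        · rw [hc0, inv_zero]; exact h0 _ F₀.zero_mem
        have h1 : c ^ (Fintype.card F - 1) = 1 := FiniteField.pow_card_sub_one_eq_one c hc0
        have h2 : 2 ≤ Fintype.card F := Fintype.one_lt_card
        have h3 : c⁻¹ = c ^ (Fintype.card F - 2) := by
          rw [inv_eq_iff_eq_inv]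
          apply eq_inv_of_mul_eq_one_left
          rw [← pow_succ', show Fintype.card F - 2 + 1 = Fintype.card F - 1 by omega, h1]
        rw [h3]
        exact hpow c hc _ }
  have hle : F₀ ≤ K := h0
  let _ : Algebra F₀ K := (Subfield.inclusion hle).toAlgebra
  have c1 : Nat.card K = Nat.card F₀ ^ Module.finrank F₀ K := Module.natCard_eq_pow_finrank
  have c2 : Nat.card F = Nat.card K ^ Module.finrank K F := Module.natCard_eq_pow_finrank
  have hq : 1 < Nat.card F₀ := Finite.one_lt_card
  have h5 : Module.finrank F₀ K * Module.finrank K F = r := by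
    rw [c1, ← pow_mul, hcard] at c2
    exact (Nat.pow_right_injective hq c2).symm
  rcases (Nat.dvd_prime hr).1 (Dvd.intro _ h5) with h | h
  · left
    rw [h, pow_one] at c1
    intro c hc
    have h6 : (F₀ : Set F) = (K : Set F) := by
      apply Set.eq_of_subset_of_ncard_le hle
      show Nat.card K ≤ Nat.card F₀
      exact c1.le
    have h7 : c ∈ (K : Set F) := hc
    rw [← h6] at h7
    exact h7
  · right
    rw [h] at h5 c1
    have h8 : Module.finrank K F = 1 := by
      have := hr.pos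
      nlinarith
    rw [h8, pow_one] at c2
    intro c
    have h6 : (K : Set F) = Set.univ := by
      apply Set.eq_of_subset_of_ncard_le (Set.subset_univ _)
      rw [Set.ncard_univ]
      show Nat.card F ≤ Nat.card K
      exact c2.le
    have h7 : c ∈ (K : Set F) := by rw [h6]; trivial
    exact h7

/-- If `c² ∈ F₀` then `c ∈ F₀`, or `F = F₀ + F₀ c`. -/
theorem sq_mem (F₀ : Subfield F) {r : ℕ} (hr : r.Prime)
    (hcard : Nat.card F = Nat.card F₀ ^ r) {c : F} (hc : c ^ 2 ∈ F₀) :
    c ∈ F₀ ∨ ∀ d : F, ∃ x ∈ F₀, ∃ y ∈ F₀, d = x + y * c := by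
  have key := dichotomy F₀ hr hcard {d | ∃ x ∈ F₀, ∃ y ∈ F₀, d = x + y * c}
    (fun d hd => ⟨d, hd, 0, F₀.zero_mem, by ring⟩)
    (by
      rintro _ ⟨x, hx, y, hy, rfl⟩ _ ⟨x', hx', y', hy', rfl⟩
      exact ⟨x + x', F₀.add_mem hx hx', y + y', F₀.add_mem hy hy', by ring⟩)
    (by
      rintro _ ⟨x, hx, y, hy, rfl⟩ _ ⟨x', hx', y', hy', rfl⟩
      exact ⟨x * x' + y * y' * c ^ 2,
        F₀.add_mem (F₀.mul_mem hx hx') (F₀.mul_mem (F₀.mul_mem hy hy') hc), x * y' + y * x',
        F₀.add_mem (F₀.mul_mem hx hy') (F₀.mul_mem hy hx'), by ring⟩)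
  rcases key with h | h
  · left
    exact h c ⟨0, F₀.zero_mem, 1, F₀.one_mem, by ring⟩
  · right
    exact h

/-- `p`-th roots of elements of `F₀` lie in `F₀`. -/
theorem mem_of_pow_mem (F₀ : Subfield F) {p : ℕ} [Fact p.Prime] [CharP F p] {c : F}
    (hc : c ^ p ∈ F₀) : c ∈ F₀ := by
  have : CharP F₀ p := inferInstance
  have hsurj : Function.Surjective (frobenius F₀ p) :=
    Finite.surjective_of_injective (frobenius_inj F₀ p)
  obtain ⟨d, hd⟩ := hsurj ⟨c ^ p, hc⟩
  have h1 : (d : F) ^ p = c ^ p := by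
    have := congrArg (fun z : F₀ => (z : F)) hd
    simpa [frobenius_def] using this
  have h2 : (frobenius F p) (d : F) = frobenius F p c := by
    rw [frobenius_def, frobenius_def, h1]
  have h3 := frobenius_inj F p h2
  rw [← h3]
  exact d.2

end Cfsg.Agent.H888.FieldDich
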