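import Cfsg.Agent.H883.Root
import Cfsg.Agent.H883.Sub

/-!
Rational structures: the `F₀`-span of a basis of `V` for a subfield `F₀` of `F`, and quadratic forms
that are `F₀`-valued on it.
-/

set_option autoImplicit false

namespace Cfsg.Agent.H888.Rat

open QuadraticMap Cfsg.Agent.LieClassical.OrthCore Cfsg.Agent.LieClassical.OrthTrans
  Cfsg.Agent.LieClassical.OrthFinite Cfsg.Agent.H883.Root

variable {F V : Type*} [Field F] [AddCommGroup V] [Module F V] {ι : Type*}

/-- Vectors all of whose coordinates in the basis `b` lie in the subfield `F₀`. -/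
def rat (b : Module.Basis ι F V) (F₀ : Subfield F) : Submodule F₀ V where
  carrier := {v | ∀ i, b.repr v i ∈ F₀}
  add_mem' {x y} hx hy := fun i => by
    rw [map_add, Finsupp.add_apply]
    exact F₀.add_mem (hx i) (hy i)
  zero_mem' := fun i => by
    rw [map_zero, Finsupp.zero_apply]
    exact F₀.zero_mem
  smul_mem' c x hx := fun i => by
    have e : c • x = (c : F) • x := rfl
    rw [e, map_smul, Finsupp.smul_apply, smul_eq_mul]
    exact F₀.mul_mem c.2 (hx i)

variable {b : Module.Basis ι F V} {F₀ : Subfield F} {Q : QuadraticForm F V}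

theorem mem_rat {v : V} : v ∈ rat b F₀ ↔ ∀ i, b.repr v i ∈ F₀ := Iff.rfl

theorem rat_smul {c : F} (hc : c ∈ F₀) {v : V} (hv : v ∈ rat b F₀) : c • v ∈ rat b F₀ :=
  (rat b F₀).smul_mem (⟨c, hc⟩ : F₀) hv

theorem basis_mem (i : ι) : b i ∈ rat b F₀ := by
  classical
  intro j
  rw [b.repr_self, Finsupp.single_apply]
  split_ifs
  · exact F₀.one_mem
  · exact F₀.zero_mem

theorem mem_of_smul_mem {c : F} {v : V} (hv : v ∈ rat b F₀) (h0 : v ≠ 0) (h : c • v ∈ rat b F₀) :
    c ∈ F₀ := by
  have h1 : b.repr v ≠ 0 := by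
    intro h2
    exact h0 (b.repr.map_eq_zero_iff.1 h2)
  obtain ⟨i, hi⟩ := Finsupp.ne_iff.1 h1
  rw [Finsupp.zero_apply] at hi
  have h2 := h i
  rw [map_smul, Finsupp.smul_apply, smul_eq_mul] at h2
  have h3 := F₀.mul_mem h2 (F₀.inv_mem (hv i))
  rwa [mul_assoc, mul_inv_cancel₀ hi, mul_one] at h3

/-- `Q` is `F₀`-valued on the rational vectors. -/
def IsRat (Q : QuadraticForm F V) (b : Module.Basis ι F V) (F₀ : Subfield F) : Prop :=
  ∀ v ∈ rat b F₀, Q v ∈ F₀

theorem IsRat.polar (h : IsRat Q b F₀) {u v : V} (hu : u ∈ rat b F₀) (hv : v ∈ rat b F₀) :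
    QuadraticMap.polar Q u v ∈ F₀ :=
  F₀.sub_mem (F₀.sub_mem (h _ ((rat b F₀).add_mem hu hv)) (h _ hu)) (h _ hv)

theorem eq_of_rat {W : Type*} [AddCommGroup W] [Module F W] {f g : V →ₗ[F] W}
    (h : ∀ u ∈ rat b F₀, f u = g u) : f = g :=
  b.ext fun i => h _ (basis_mem i)

theorem eq_zero_of_perp (hQ : Nondeg Q) {x : V} (h : ∀ u ∈ rat b F₀, QuadraticMap.polar Q x u = 0) :
    x = 0 := by
  apply hQ
  intro y
  have : (polarBilin Q x) = (0 : V →ₗ[F] F) := eq_of_rat (b := b) (F₀ := F₀) fun u hu => h u hu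
  exact LinearMap.congr_fun this y

section Theta

variable [Fintype ι]

/-- Coordinatewise application of an `F₀`-linear functional `θ : F → F₀`. -/
noncomputable def tv (b : Module.Basis ι F V) (θ : F →ₗ[F₀] F₀) (v : V) : V :=
  ∑ i, ((θ (b.repr v i) : F₀) : F) • b i

theorem tv_mem (θ : F →ₗ[F₀] F₀) (v : V) : tv b θ v ∈ rat b F₀ := by
  refine Submodule.sum_mem _ fun i _ => rat_smul (θ (b.repr v i)).2 (basis_mem i)

theorem polar_sum_right (Q : QuadraticForm F V) {κ : Type*} (s : Finset κ) (u : V) (f : κ → V) :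
    QuadraticMap.polar Q u (∑ i ∈ s, f i) = ∑ i ∈ s, QuadraticMap.polar Q u (f i) := by
  have h := map_sum (polarBilin Q u) f s
  simp only [polarBilin_apply_apply] at h
  exact h

theorem polar_tv (hR : IsRat Q b F₀) (θ : F →ₗ[F₀] F₀) {u : V} (hu : u ∈ rat b F₀) (v : V) :
    QuadraticMap.polar Q u (tv b θ v) = (θ (QuadraticMap.polar Q u v) : F) := by
  have e : QuadraticMap.polar Q u v = ∑ i, b.repr v i * QuadraticMap.polar Q u (b i) := by
    conv_lhs => rw [← b.sum_repr v]
    rw [polar_sum_right]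
    refine Finset.sum_congr rfl fun i _ => ?_
    rw [polar_smul_right, smul_eq_mul]
  rw [e, tv, polar_sum_right, map_sum, AddSubmonoidClass.coe_finsetSum]
  refine Finset.sum_congr rfl fun i _ => ?_
  rw [polar_smul_right, smul_eq_mul]
  have h1 : b.repr v i * QuadraticMap.polar Q u (b i) =
      (⟨QuadraticMap.polar Q u (b i), hR.polar hu (basis_mem i)⟩ : F₀) • b.repr v i := by
    rw [Subfield.smul_def, smul_eq_mul, mul_comm]
  rw [h1, map_smul, smul_eq_mul, MulMemClass.coe_mul, mul_comm]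

/-- Duality: a vector with `F₀`-valued pairing with all rational vectors is rational. -/
theorem mem_rat_of_polar (hQ : Nondeg Q) (hR : IsRat Q b F₀) {x : V}
    (h : ∀ u ∈ rat b F₀, QuadraticMap.polar Q u x ∈ F₀) : x ∈ rat b F₀ := by
  obtain ⟨θ, hθ⟩ := (Algebra.linearMap F₀ F).exists_leftInverse_of_injective
    (LinearMap.ker_eq_bot.2 (algebraMap F₀ F).injective)
  have hθ' : ∀ c : F, c ∈ F₀ → ((θ c : F₀) : F) = c := by
    intro c hc
    have h1 := LinearMap.congr_fun hθ ⟨c, hc⟩
    exact congrArg (fun z : F₀ => (z : F)) h1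
  have h1 : x - tv b θ x = 0 := by
    apply eq_zero_of_perp hQ (b := b) (F₀ := F₀)
    intro u hu
    rw [polar_comm, polar_sub_right, polar_tv hR θ hu, hθ' _ (h u hu), sub_self]
  rw [sub_eq_zero.1 h1]
  exact tv_mem θ x

/-- Separation by rational vectors. -/
theorem exists_rat_sep (hR : IsRat Q b F₀) [FiniteDimensional F₀ F] {S : Set V}
    (hS : ∀ s ∈ S, s ∈ rat b F₀) {x v : V} (hv : ∀ s ∈ S, QuadraticMap.polar Q s v = 0)
    (hx : QuadraticMap.polar Q x v ≠ 0) :
    ∃ w ∈ rat b F₀, (∀ s ∈ S, QuadraticMap.polar Q s w = 0) ∧ QuadraticMap.polar Q x w ≠ 0 := by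
  classical
  let c := Module.finBasis F₀ F
  by_contra hcon
  push Not at hcon
  have h1 : ∀ j, QuadraticMap.polar Q x (tv b (c.coord j) v) = 0 := by
    intro j
    refine hcon _ (tv_mem _ _) fun s hs => ?_
    rw [polar_tv hR _ (hS s hs), hv s hs, map_zero, ZeroMemClass.coe_zero]
  apply hx
  have e : v = ∑ j, c j • tv b (c.coord j) v := by
    apply b.ext_elem
    intro i
    rw [map_sum, Finsupp.finsetSum_apply]
    have h2 : ∀ j, (b.repr (c j • tv b (c.coord j) v)) i = (c.repr (b.repr v i) j) • c j := by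
      intro j
      rw [map_smul, Finsupp.smul_apply, tv, map_sum, Finsupp.finsetSum_apply]
      rw [Finset.sum_eq_single i]
      · rw [map_smul, Finsupp.smul_apply, b.repr_self, Finsupp.single_eq_same]
        rw [Module.Basis.coord_apply, Subfield.smul_def]
        simp only [smul_eq_mul, mul_one]
        ring
      · intro k _ hk
        rw [map_smul, Finsupp.smul_apply, b.repr_self, Finsupp.single_eq_of_ne (Ne.symm hk)]
        simp
      · intro h; exact absurd (Finset.mem_univ i) h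
    rw [Finset.sum_congr rfl fun j _ => h2 j, c.sum_repr]
  rw [e, polar_sum_right]
  refine Finset.sum_eq_zero fun j _ => ?_
  rw [polar_smul_right, h1, smul_zero]

end Theta

end Cfsg.Agent.H888.Rat
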