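import Cfsg.Agent.H888.Rat

/-!
The quadratic form induced on a rational structure; hyperbolic pairs orthogonal to given vectors;
transitivity of the rational Siegel transformations on rational singular vectors.
-/

set_option autoImplicit false

namespace Cfsg.Agent.H888.Rat

open QuadraticMap Cfsg.Agent.LieClassical.OrthCore Cfsg.Agent.LieClassical.OrthTrans
  Cfsg.Agent.LieClassical.OrthFinite Cfsg.Agent.H883.Root

section General

variable {F V : Type*} [Field F] [AddCommGroup V] [Module F V] {Q : QuadraticForm F V}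

/-- **A hyperbolic pair orthogonal to `m` given vectors**, finite field, dimension at least `2 m + 3`. -/
theorem exists_hyp_orth [Finite F] (hQ : Nondeg Q) {m : ℕ} (s : Fin m → V)
    (hm : 2 * m + 3 ≤ Module.finrank F V) :
    ∃ x y, Hyp Q x y ∧ (∀ i, polar Q (s i) x = 0) ∧ (∀ i, polar Q (s i) y = 0) := by
  have : Module.Finite F V := Module.finite_of_finrank_pos (by omega)
  let S : Submodule F V := Submodule.span F (Set.range s)
  have hS : Module.finrank F S ≤ m := by
    have := finrank_range_le_card (R := F) s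
    simpa [Set.finrank] using this
  have hperp : Module.finrank F S + Module.finrank F (Cfsg.Agent.H883.Sub.perp Q S) =
      Module.finrank F V := by
    have := Cfsg.Agent.H883.Sub.finrank_perp hQ S
    omega
  obtain ⟨T, hT⟩ := Submodule.exists_isCompl (S.comap (Cfsg.Agent.H883.Sub.perp Q S).subtype)
  have h1 := Submodule.finrank_add_eq_of_isCompl hT
  have h2 : Module.finrank F (S.comap (Cfsg.Agent.H883.Sub.perp Q S).subtype) ≤ m := by
    have h3 : Module.finrank F (S.comap (Cfsg.Agent.H883.Sub.perp Q S).subtype) ≤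
        Module.finrank F S := by
      let f : (S.comap (Cfsg.Agent.H883.Sub.perp Q S).subtype) →ₗ[F] S :=
        LinearMap.codRestrict S ((Cfsg.Agent.H883.Sub.perp Q S).subtype.comp
          (S.comap (Cfsg.Agent.H883.Sub.perp Q S).subtype).subtype) (fun x => x.2)
      have hf : Function.Injective f := by
        intro x y hxy
        have : ((x : Cfsg.Agent.H883.Sub.perp Q S) : V) = ((y : Cfsg.Agent.H883.Sub.perp Q S) : V) :=
          congrArg (fun z : S => (z : V)) hxy
        exact Subtype.ext (Subtype.ext this)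
      exact LinearMap.finrank_le_finrank_of_injective hf
    omega
  have h4 : Module.finrank F (T.map (Cfsg.Agent.H883.Sub.perp Q S).subtype) = Module.finrank F T :=
    LinearEquiv.finrank_eq (Submodule.equivMapOfInjective _ (Submodule.subtype_injective _) T).symm
  obtain ⟨x, hxT, hx0, hx⟩ := exists_sing_mem (Q := Q)
    (T.map (Cfsg.Agent.H883.Sub.perp Q S).subtype) (by omega)
  obtain ⟨x', hx'T, rfl⟩ := hxT
  have hxS : ((x' : Cfsg.Agent.H883.Sub.perp Q S) : V) ∉ S := by
    intro hmem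
    have h5 : x' ∈ S.comap (Cfsg.Agent.H883.Sub.perp Q S).subtype := hmem
    have h6 := Submodule.disjoint_def.1 hT.disjoint x' h5 hx'T
    exact hx0 (by rw [h6]; rfl)
  have hxperp : ((x' : Cfsg.Agent.H883.Sub.perp Q S) : V) ∉
      Cfsg.Agent.H883.Sub.perp Q (Cfsg.Agent.H883.Sub.perp Q S) := by
    rw [Cfsg.Agent.H883.Sub.perp_perp hQ]
    exact hxS
  rw [Cfsg.Agent.H883.Sub.mem_perp] at hxperp
  push Not at hxperp
  obtain ⟨y, hyS, hy⟩ := hxperp
  set x : V := (x' : V) with hxdef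
  have hx1 : ∀ i, polar Q (s i) x = 0 := fun i =>
    Cfsg.Agent.H883.Sub.mem_perp.1 x'.2 _ (Submodule.subset_span ⟨i, rfl⟩)
  have hy1 : ∀ i, polar Q (s i) y = 0 := fun i =>
    Cfsg.Agent.H883.Sub.mem_perp.1 hyS _ (Submodule.subset_span ⟨i, rfl⟩)
  have hx' : Q x = 0 := hx
  have hxy : polar Q x y ≠ 0 := by rwa [polar_comm] at hy
  set d := (polar Q x y)⁻¹ with hd
  have hxz : polar Q x (d • y) = 1 := by
    rw [polar_smul_right, smul_eq_mul, hd, inv_mul_cancel₀ hxy]
  refine ⟨x, d • y + (-Q (d • y)) • x, ⟨hx', ?_, ?_⟩, hx1, fun i => ?_⟩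
  · rw [Q_add, QuadraticMap.map_smul Q (-Q (d • y)), hx', polar_smul_right,
      polar_comm Q (d • y) x, hxz]
    simp
  · rw [polar_add_right, hxz, polar_smul_right, polar_self_of_sing hx']
    simp
  · rw [polar_add_right, polar_smul_right, polar_smul_right, hx1, hy1]
    simp

end General

variable {F V : Type*} [Field F] [AddCommGroup V] [Module F V] {ι : Type*}
variable {b : Module.Basis ι F V} {F₀ : Subfield F} {Q : QuadraticForm F V}

/-- The form on the rational vectors. -/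
def qf0 (Q : QuadraticForm F V) (b : Module.Basis ι F V) (F₀ : Subfield F) (hR : IsRat Q b F₀) :
    QuadraticForm F₀ (rat b F₀) where
  toFun v := ⟨Q v, hR v v.2⟩
  toFun_smul c v := by
    apply Subtype.ext
    show Q ((c : F) • (v : V)) = _
    rw [QuadraticMap.map_smul]
    rfl
  exists_companion' := by
    refine ⟨LinearMap.mk₂ F₀ (fun u v => ⟨polar Q (u : V) (v : V), hR.polar u.2 v.2⟩) ?_ ?_ ?_ ?_, ?_⟩
    · intro u u' v
      exact Subtype.ext (polar_add_left Q (u : V) (u' : V) (v : V))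
    · intro c u v
      exact Subtype.ext (polar_smul_left Q (c : F) (u : V) (v : V))
    · intro u v v'
      exact Subtype.ext (polar_add_right Q (u : V) (v : V) (v' : V))
    · intro c u v
      exact Subtype.ext (polar_smul_right Q (c : F) (u : V) (v : V))
    · intro x y
      apply Subtype.ext
      exact Q_add (x : V) (y : V)

theorem qf0_apply (hR : IsRat Q b F₀) (v : rat b F₀) : ((qf0 Q b F₀ hR v : F₀) : F) = Q (v : V) := rfl

theorem polar_qf0 (hR : IsRat Q b F₀) (u v : rat b F₀) :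
    ((polar (qf0 Q b F₀ hR) u v : F₀) : F) = polar Q (u : V) (v : V) := rfl

theorem hyp_qf0 {hR : IsRat Q b F₀} {u v : rat b F₀} :
    Hyp (qf0 Q b F₀ hR) u v ↔ Hyp Q (u : V) (v : V) := by
  constructor
  · intro h
    refine ⟨?_, ?_, ?_⟩
    · rw [← qf0_apply hR u, h.left]; rfl
    · rw [← qf0_apply hR v, h.right]; rfl
    · rw [← polar_qf0 hR, h.pair]; rfl
  · intro h
    exact ⟨Subtype.ext h.left, Subtype.ext h.right, Subtype.ext h.pair⟩

theorem nondeg_qf0 (hQ : Nondeg Q) (hR : IsRat Q b F₀) : Nondeg (qf0 Q b F₀ hR) := by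
  intro x hx
  apply Subtype.ext
  apply eq_zero_of_perp hQ (b := b) (F₀ := F₀)
  intro u hu
  have := hx ⟨u, hu⟩
  exact congrArg (fun z : F₀ => (z : F)) this

theorem finrank_rat [Fintype ι] : Module.finrank F₀ (rat b F₀) = Fintype.card ι := by
  let f : (rat b F₀) ≃ₗ[F₀] (ι → F₀) :=
    { toFun := fun v i => ⟨b.repr (v : V) i, v.2 i⟩
      map_add' := fun u v => by
        funext i
        apply Subtype.ext
        simp
      map_smul' := fun c v => by
        funext i
        apply Subtype.ext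
        show b.repr ((c : F) • (v : V)) i = (c : F) * b.repr (v : V) i
        rw [map_smul, Finsupp.smul_apply, smul_eq_mul]
      invFun := fun x => ⟨∑ i, (x i : F) • b i,
        Submodule.sum_mem _ fun i _ => rat_smul (x i).2 (basis_mem i)⟩
      left_inv := fun v => by
        apply Subtype.ext
        exact b.sum_repr (v : V)
      right_inv := fun x => by
        funext i
        apply Subtype.ext
        show b.repr (∑ j, (x j : F) • b j) i = x i
        rw [b.repr_sum_self] }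
  rw [f.finrank_eq, Module.finrank_fintype_fun_eq_card]

/-- Rational hyperbolic pairs orthogonal to `m` rational vectors. -/
theorem exists_hyp_rat [Fintype ι] [Finite F] (hQ : Nondeg Q) (hR : IsRat Q b F₀) {m : ℕ}
    (s : Fin m → V) (hs : ∀ i, s i ∈ rat b F₀) (hm : 2 * m + 3 ≤ Fintype.card ι) :
    ∃ x ∈ rat b F₀, ∃ y ∈ rat b F₀, Hyp Q x y ∧ (∀ i, polar Q (s i) x = 0) ∧
      (∀ i, polar Q (s i) y = 0) := by
  obtain ⟨x, y, hxy, hx, hy⟩ := exists_hyp_orth (nondeg_qf0 hQ hR)
    (fun i => (⟨s i, hs i⟩ : rat b F₀)) (by rw [finrank_rat]; exact hm)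
  refine ⟨x, x.2, y, y.2, hyp_qf0.1 hxy, fun i => ?_, fun i => ?_⟩
  · have := hx i
    exact congrArg (fun z : F₀ => (z : F)) this
  · have := hy i
    exact congrArg (fun z : F₀ => (z : F)) this

/-- A rational partner of a rational singular vector, orthogonal to nothing. -/
theorem exists_partner_rat (hQ : Nondeg Q) (hR : IsRat Q b F₀) {x : V} (hx : x ∈ rat b F₀)
    (hsx : Q x = 0) (h0 : x ≠ 0) : ∃ y ∈ rat b F₀, Hyp Q x y := by
  have h1 : qf0 Q b F₀ hR ⟨x, hx⟩ = 0 := Subtype.ext hsx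
  obtain ⟨y, hy⟩ := exists_hyp (nondeg_qf0 hQ hR) h1 (fun h => h0 (congrArg Subtype.val h))
  exact ⟨y, y.2, hyp_qf0.1 hy⟩

theorem good_qf0 [Fintype ι] [Finite F] (hQ : Nondeg Q) (hR : IsRat Q b F₀)
    (hd : 5 ≤ Fintype.card ι) : Good (qf0 Q b F₀ hR) :=
  good_of_finite (nondeg_qf0 hQ hR) (by rw [finrank_rat]; exact hd)

/-- `H` contains all rational Siegel transformations. -/
def HasRat (Q : QuadraticForm F V) (b : Module.Basis ι F V) (F₀ : Subfield F)
    (H : Subgroup (V ≃ₗ[F] V)) : Prop :=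
  ∀ u ∈ rat b F₀, ∀ w ∈ rat b F₀, Q u = 0 → polar Q u w = 0 → Has Q H u w

theorem siegel_rat (hR : IsRat Q b F₀) {u w : V} (hu : Q u = 0) (hw : polar Q u w = 0)
    (huR : u ∈ rat b F₀) (hwR : w ∈ rat b F₀) {v : V} (hv : v ∈ rat b F₀) :
    siegel Q u w hu hw v ∈ rat b F₀ := by
  rw [siegel_apply]
  refine (rat b F₀).sub_mem ((rat b F₀).sub_mem ((rat b F₀).add_mem hv
    (rat_smul (hR.polar huR hv) hwR)) (rat_smul (hR.polar hwR hv) huR)) (rat_smul ?_ huR)
  exact F₀.mul_mem (hR _ hwR) (hR.polar huR hv)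

/-- Elements of `E` of the rational form lift. -/
theorem exists_lift_rat (hR : IsRat Q b F₀) {H : Subgroup (V ≃ₗ[F] V)} (hH : HasRat Q b F₀ H)
    {g₀ : (rat b F₀) ≃ₗ[F₀] (rat b F₀)} (hg : g₀ ∈ E (qf0 Q b F₀ hR)) :
    ∃ g ∈ H ⊓ E Q, ∀ v : rat b F₀, g (v : V) = (g₀ v : V) := by
  induction hg using Subgroup.closure_induction with
  | mem x hx =>
    obtain ⟨u, w, hu, hw, rfl⟩ := hx
    have hu' : Q (u : V) = 0 := congrArg (fun z : F₀ => (z : F)) hu
    have hw' : polar Q (u : V) (w : V) = 0 := congrArg (fun z : F₀ => (z : F)) hw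
    refine ⟨siegel Q (u : V) (w : V) hu' hw', ⟨(hH u u.2 w w.2 hu' hw').mem hu' hw',
      siegel_mem_E _ _⟩, fun v => ?_⟩
    rw [siegel_apply, siegel_apply]
    rfl
  | one => exact ⟨1, Subgroup.one_mem _, fun v => rfl⟩
  | mul x y _ _ hx hy =>
    obtain ⟨g, hg, hgx⟩ := hx
    obtain ⟨k, hk, hky⟩ := hy
    refine ⟨g * k, Subgroup.mul_mem _ hg hk, fun v => ?_⟩
    show g (k (v : V)) = ((x (y v) : rat b F₀) : V)
    rw [hky, hgx]
  | inv x _ hx =>
    obtain ⟨g, hg, hgx⟩ := hx
    refine ⟨g⁻¹, Subgroup.inv_mem _ hg, fun v => ?_⟩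
    have h1 : g ((x⁻¹ v : rat b F₀) : V) = (v : V) := by
      rw [hgx]
      exact congrArg Subtype.val (LinearEquiv.apply_symm_apply x v)
    rw [← h1]
    exact LinearEquiv.symm_apply_apply g _

/-- **Transitivity on rational singular vectors.** -/
theorem trans_rat [Fintype ι] [Finite F] (hQ : Nondeg Q) (hR : IsRat Q b F₀)
    (hd : 5 ≤ Fintype.card ι) {H : Subgroup (V ≃ₗ[F] V)} (hH : HasRat Q b F₀ H) {x x' : V}
    (hx : x ∈ rat b F₀) (hx' : x' ∈ rat b F₀) (hsx : Q x = 0) (hsx' : Q x' = 0) (h0 : x ≠ 0)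
    (h0' : x' ≠ 0) : ∃ g ∈ H ⊓ E Q, g x = x' ∧ ∀ v ∈ rat b F₀, g v ∈ rat b F₀ := by
  have h1 : qf0 Q b F₀ hR ⟨x, hx⟩ = 0 := Subtype.ext hsx
  have h2 : qf0 Q b F₀ hR ⟨x', hx'⟩ = 0 := Subtype.ext hsx'
  obtain ⟨g₀, hg₀, hgx⟩ := (good_qf0 hQ hR hd).trans_sing h1 h2
    (fun h => h0 (congrArg Subtype.val h)) (fun h => h0' (congrArg Subtype.val h))
  obtain ⟨g, hg, hgv⟩ := exists_lift_rat hR hH hg₀
  refine ⟨g, hg, ?_, fun v hv => ?_⟩
  · rw [hgv ⟨x, hx⟩, hgx]
  · rw [hgv ⟨v, hv⟩]
    exact Subtype.coe_prop _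

end Cfsg.Agent.H888.Rat
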