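import Mathlib
import Cfsg.Agent.S0058

/-!
A self-normalising noncyclic abelian `p`-subgroup `P` of `G` all of whose nonidentity elements have their
centraliser in `M` forces `G ≤ M` (Burnside transfer and coprime generation).
-/

set_option autoImplicit false

namespace Cfsg.Agent.H888.StrongP

/-- **A self-normalising noncyclic abelian `p`-subgroup with centralisers in `M`.** -/
theorem le_of_self_normalizing {X : Type*} [Group X] [Finite X] {p : ℕ} [Fact p.Prime]
    (P G M : Subgroup X) (hPG : P ≤ G) (hP : IsPGroup p P)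
    (hcomm : ∀ a ∈ P, ∀ c ∈ P, a * c = c * a) (hcyc : ¬ IsCyclic P) (hPM : P ≤ M)
    (hcent : ∀ g ∈ P, g ≠ 1 → ∀ n ∈ G, n * g = g * n → n ∈ M)
    (hnorm : ∀ n ∈ G, (∀ g ∈ P, n * g * n⁻¹ ∈ P) → n ∈ P) : G ≤ M := by
  classical
  -- `P` inside `G`
  set P' : Subgroup G := P.subgroupOf G with hP'
  have hP'p : IsPGroup p P' := hP.comap_subtype
  obtain ⟨S, hS⟩ := hP'p.exists_le_sylow
  have hSP : (S : Subgroup G) = P' := by
    by_contra hne
    have hnil : Group.IsNilpotent (S : Subgroup G) := S.isPGroup'.isNilpotent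
    have hnc := Group.normalizerCondition_of_isNilpotent (G := (S : Subgroup G))
    have hlt : P'.subgroupOf (S : Subgroup G) < ⊤ := by
      rw [lt_top_iff_ne_top]
      intro h
      rw [Subgroup.subgroupOf_eq_top] at h
      exact hne (le_antisymm h hS)
    have h1 := hnc _ hlt
    obtain ⟨n, hn, hn'⟩ := SetLike.exists_of_lt h1
    apply hn'
    rw [Subgroup.mem_subgroupOf, Subgroup.mem_subgroupOf]
    refine hnorm _ (n : G).2 fun g hg => ?_
    have hgG : g ∈ G := hPG hg
    have hgS : (⟨g, hgG⟩ : G) ∈ (S : Subgroup G) := hS (by rw [hP', Subgroup.mem_subgroupOf]; exact hg)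
    have h2 := (Subgroup.mem_normalizer_iff.1 hn (⟨⟨g, hgG⟩, hgS⟩ : (S : Subgroup G))).1
      (by rw [Subgroup.mem_subgroupOf, Subgroup.mem_subgroupOf]; exact hg)
    rw [Subgroup.mem_subgroupOf, Subgroup.mem_subgroupOf] at h2
    exact h2
  have hmemS : ∀ x : G, x ∈ S ↔ (x : X) ∈ P := by
    intro x
    have : x ∈ S ↔ x ∈ (S : Subgroup G) := Iff.rfl
    rw [this, hSP, Subgroup.mem_subgroupOf]
  have hN : Subgroup.normalizer (S : Set G) ≤ Subgroup.centralizer (S : Set G) := by
    intro n hn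
    have hnP : (n : X) ∈ P := by
      refine hnorm _ n.2 fun g hg => ?_
      have h1 := (Subgroup.mem_normalizer_iff.1 hn (⟨g, hPG hg⟩ : G)).1 ((hmemS _).2 hg)
      exact (hmemS _).1 h1
    rw [Subgroup.mem_centralizer_iff]
    intro g hg
    exact Subtype.ext (hcomm _ ((hmemS g).1 hg) _ hnP)
  set K := (MonoidHom.transferSylow S hN).ker with hK
  have hKc : K.IsComplement' (S : Subgroup G) := MonoidHom.ker_transferSylow_isComplement' S hN
  have hKp : ¬ p ∣ Nat.card K := MonoidHom.not_dvd_card_ker_transferSylow S hN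
  have hScomm : IsMulCommutative (S : Subgroup G) :=
    ⟨⟨fun a c => Subtype.ext (Subtype.ext (hcomm _ ((hmemS a).1 a.2) _ ((hmemS c).1 c.2)))⟩⟩
  have hScyc : ¬ IsCyclic (S : Subgroup G) := by
    intro h
    apply hcyc
    rw [hSP] at h
    exact (MulEquiv.isCyclic (Subgroup.subgroupOfEquivOfLe hPG)).1 h
  have hnorm' : (S : Subgroup G) ≤ Subgroup.normalizer (K : Set G) := by
    have : K.Normal := MonoidHom.normal_ker _
    rw [Subgroup.normalizer_eq_top_iff.2 this]
    exact le_top
  have hcop : (Nat.card (S : Subgroup G)).Coprime (Nat.card K) := by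
    obtain ⟨m, hm⟩ := IsPGroup.iff_card.1 S.isPGroup'
    rw [hm]
    exact Nat.Coprime.pow_left _ ((Nat.Prime.coprime_iff_not_dvd Fact.out).2 hKp)
  have hgen := Cfsg.Agent.S0058.result (S : Subgroup G) K hScyc hnorm' hcop
  have hKM : K ≤ M.subgroupOf G := by
    rw [← hgen]
    refine iSup₂_le fun a ha n hn => ?_
    rw [Subgroup.mem_subgroupOf]
    refine hcent (a : X) ((hmemS a).1 ha.1) ?_ (n : X) n.2 ?_
    · intro h
      exact ha.2 (Subtype.ext h)
    · have := Subgroup.mem_centralizer_iff.1 hn.2 a rfl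
      exact (congrArg Subtype.val this).symm
  have hSM : (S : Subgroup G) ≤ M.subgroupOf G := by
    intro x hx
    rw [Subgroup.mem_subgroupOf]
    exact hPM ((hmemS x).1 hx)
  have htop : (⊤ : Subgroup G) ≤ M.subgroupOf G := by
    rw [← hKc.sup_eq_top]
    exact sup_le hKM hSM
  rw [top_le_iff, Subgroup.subgroupOf_eq_top] at htop
  exact htop

end Cfsg.Agent.H888.StrongP
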