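import Cfsg.Agent.H888.RatOpp
import Cfsg.Agent.H888.StrongP

/-!
A thin overgroup of the normaliser of a rational structure is contained in it.
-/

set_option autoImplicit false

namespace Cfsg.Agent.H888.Rat

open QuadraticMap hiding proj
open Cfsg.Agent.LieClassical.OrthCore Cfsg.Agent.LieClassical.OrthTrans
  Cfsg.Agent.LieClassical.OrthFinite Cfsg.Agent.H883.Root Cfsg.Agent.H883.Sub

variable {F V : Type*} [Field F] [AddCommGroup V] [Module F V] {ι : Type*}
variable {b : Module.Basis ι F V} {F₀ : Subfield F} {Q : QuadraticForm F V}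
variable {H : Subgroup (V ≃ₗ[F] V)}

/-- Three elements of `F₀ + F₀ c` are linearly dependent over `F₀`. -/
theorem exists_relation (F₀ : Subfield F) {c : F} (h : ∀ d : F, ∃ x ∈ F₀, ∃ y ∈ F₀, d = x + y * c)
    (k : Fin 3 → F) : ∃ m : Fin 3 → F, (∀ i, m i ∈ F₀) ∧ m ≠ 0 ∧ ∑ i, m i * k i = 0 := by
  choose x hx y hy hxy using h
  let w : Fin 3 → (F₀ × F₀) := fun i => (⟨x (k i), hx _⟩, ⟨y (k i), hy _⟩)
  have hdep : ¬ LinearIndependent F₀ w := by
    intro hli
    have := hli.fintype_card_le_finrank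
    rw [Module.finrank_prod, Module.finrank_self, Fintype.card_fin] at this
    omega
  rw [Fintype.not_linearIndependent_iff] at hdep
  obtain ⟨g, hg, i, hi⟩ := hdep
  refine ⟨fun i => (g i : F), fun i => (g i).2, ?_, ?_⟩
  · intro h0
    apply hi
    have := congrFun h0 i
    exact Subtype.ext this
  · have h1 : ∑ i, (g i : F) * x (k i) = 0 := by
      have := congrArg (fun z : F₀ × F₀ => ((z.1 : F₀) : F)) hg
      simpa [w, Fin.sum_univ_three] using this
    have h2 : ∑ i, (g i : F) * y (k i) = 0 := by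
      have := congrArg (fun z : F₀ × F₀ => ((z.2 : F₀) : F)) hg
      simpa [w, Fin.sum_univ_three] using this
    have h3 : ∀ i, (g i : F) * k i = (g i : F) * x (k i) + ((g i : F) * y (k i)) * c := by
      intro i
      conv_lhs => rw [hxy (k i)]
      ring
    rw [Finset.sum_congr rfl fun i _ => h3 i, Finset.sum_add_distrib, h1, ← Finset.sum_mul, h2]
    ring

/-- Three mutually orthogonal rational hyperbolic pairs. -/
structure Frame (Q : QuadraticForm F V) (b : Module.Basis ι F V) (F₀ : Subfield F)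
    (e f : Fin 3 → V) : Prop where
  e_mem : ∀ i, e i ∈ rat b F₀
  f_mem : ∀ i, f i ∈ rat b F₀
  ee : ∀ i j, polar Q (e i) (e j) = 0
  ef : ∀ i j, polar Q (e i) (f j) = if i = j then 1 else 0
  Qe : ∀ i, Q (e i) = 0
  Qf : ∀ i, Q (f i) = 0

theorem exists_frame [Fintype ι] [Finite F] (hQ : Nondeg Q) (hR : IsRat Q b F₀)
    (hn : 7 ≤ Fintype.card ι) : ∃ e f : Fin 3 → V, Frame Q b F₀ e f := by
  obtain ⟨e₁, he₁, f₁, hf₁, h₁, -, -⟩ := exists_hyp_rat hQ hR (m := 0) ![]
    (by intro i; exact i.elim0) (by omega)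
  obtain ⟨e₂, he₂, f₂, hf₂, h₂, a2, b2⟩ := exists_hyp_rat hQ hR ![e₁, f₁]
    (by intro i; fin_cases i <;> assumption) (by omega)
  obtain ⟨e₃, he₃, f₃, hf₃, h₃, ⟨a30, a31, a32, a33⟩, ⟨b30, -, b32, -⟩⟩ :=
    exists_hyp_rat_perp2 hQ hR hn he₁ hf₁ h₁ he₂ hf₂ h₂ (a2 0) (b2 0) (a2 1) (b2 1)
  have a20 : polar Q e₁ e₂ = 0 := a2 0
  have a21 : polar Q f₁ e₂ = 0 := a2 1
  have b20 : polar Q e₁ f₂ = 0 := b2 0
  refine ⟨![e₁, e₂, e₃], ![f₁, f₂, f₃], ⟨?_, ?_, ?_, ?_, ?_, ?_⟩⟩
  · intro i; fin_cases i <;> assumption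
  · intro i; fin_cases i <;> assumption
  · intro i j
    fin_cases i <;> fin_cases j <;>
      simp only [Fin.mk_zero, Fin.mk_one, Fin.reduceFinMk, Matrix.cons_val_zero,
        Matrix.cons_val_one, Matrix.cons_val, Fin.isValue] <;>
      first
        | exact polar_self_of_sing h₁.left
        | exact polar_self_of_sing h₂.left
        | exact polar_self_of_sing h₃.left
        | assumption
        | (rw [polar_comm]; assumption)
  · intro i j
    fin_cases i <;> fin_cases j <;>
      simp only [Fin.mk_zero, Fin.mk_one, Fin.reduceFinMk, Matrix.cons_val_zero,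
        Matrix.cons_val_one, Matrix.cons_val, Fin.isValue, if_true, reduceIte,
        Fin.reduceEq] <;>
      first
        | exact h₁.pair
        | exact h₂.pair
        | exact h₃.pair
        | assumption
        | (rw [polar_comm]; assumption)
  · intro i
    fin_cases i
    exacts [h₁.left, h₂.left, h₃.left]
  · intro i
    fin_cases i
    exacts [h₁.right, h₂.right, h₃.right]

namespace Frame

variable {e f : Fin 3 → V}

theorem fe (Fr : Frame Q b F₀ e f) (i j : Fin 3) :
    polar Q (f j) (e i) = if i = j then 1 else 0 := by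
  rw [polar_comm, Fr.ef]

/-- The totally singular plane. -/
def pl (e : Fin 3 → V) : Submodule F V := Submodule.span F (Set.range e)

theorem e_mem_pl (i : Fin 3) : e i ∈ pl (F := F) e := Submodule.subset_span ⟨i, rfl⟩

theorem pl_le_perp (Fr : Frame Q b F₀ e f) : pl (F := F) e ≤ perp Q (pl e) := by
  rw [le_perp_iff]
  have h1 : ∀ w ∈ pl (F := F) e, ∀ i, polar Q w (e i) = 0 := by
    intro w hw i
    have : pl (F := F) e ≤ LinearMap.ker ((polarBilin Q).flip (e i)) := by
      rw [pl, Submodule.span_le]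
      rintro _ ⟨j, rfl⟩
      exact Fr.ee j i
    exact this hw
  intro w hw w' hw'
  have : pl (F := F) e ≤ LinearMap.ker (polarBilin Q w) := by
    rw [pl, Submodule.span_le]
    rintro _ ⟨j, rfl⟩
    exact h1 w hw j
  exact this hw'

theorem mem_perp_iff {v : V} : v ∈ perp Q (pl e) ↔ ∀ i, polar Q (e i) v = 0 := by
  constructor
  · intro h i
    exact mem_perp.1 h _ (e_mem_pl i)
  · intro h
    rw [mem_perp]
    intro w hw
    have : pl (F := F) e ≤ LinearMap.ker ((polarBilin Q).flip v) := by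
      rw [pl, Submodule.span_le]
      rintro _ ⟨j, rfl⟩
      exact h j
    exact this hw

theorem exists_coord (Fr : Frame Q b F₀ e f) {w : V} (hw : w ∈ pl (F := F) e) :
    w = ∑ i, polar Q (f i) w • e i := by
  obtain ⟨c, rfl⟩ := (Submodule.mem_span_range_iff_exists_fun F).1 hw
  refine Finset.sum_congr rfl fun i _ => ?_
  congr 1
  rw [polar_sum_right]
  simp_rw [polar_smul_right, Fr.fe]
  simp

theorem Q_pl (Fr : Frame Q b F₀ e f) {w : V} (hw : w ∈ pl (F := F) e) : Q w = 0 := by
  rw [Fr.exists_coord hw, Fin.sum_univ_three]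
  simp only [Q_add, QuadraticMap.map_smul, polar_add_left, polar_smul_left, polar_smul_right,
    Fr.Qe, Fr.ee]
  simp

theorem finrank_pl_le : Module.finrank F (pl (F := F) e) ≤ 3 := by
  have := finrank_range_le_card (R := F) e
  rwa [Fintype.card_fin] at this

theorem ratSub_pl (Fr : Frame Q b F₀ e f) : RatSub b F₀ (pl (F := F) e) :=
  ratSub_span (by rintro _ ⟨i, rfl⟩; exact Fr.e_mem i)

end Frame

open Cfsg.Agent.H888.Rat.Frame

/-- The elements of `H` fixing the orthogonal space of the plane pointwise. -/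
def radP (Q : QuadraticForm F V) (H : Subgroup (V ≃ₗ[F] V)) (e : Fin 3 → V) :
    Subgroup (V ≃ₗ[F] V) where
  carrier := {g | g ∈ H ∧ ∀ v, (∀ i, polar Q (e i) v = 0) → g v = v}
  mul_mem' {g h} hg hh := ⟨H.mul_mem hg.1 hh.1, fun v hv => by
    show g (h v) = v
    rw [hh.2 v hv, hg.2 v hv]⟩
  one_mem' := ⟨H.one_mem, fun _ _ => rfl⟩
  inv_mem' {g} hg := ⟨H.inv_mem hg.1, fun v hv => by
    have h1 := hg.2 v hv
    have h2 : g⁻¹ (g v) = v := LinearEquiv.symm_apply_apply g v
    rwa [h1] at h2⟩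

variable [Fintype ι] [Finite F]

section Rad

variable {e f : Fin 3 → V}

omit [Fintype ι] in
theorem radP_sub [FiniteDimensional F V] (C : Ctx Q b F₀ H) {g : V ≃ₗ[F] V}
    (hg : g ∈ radP Q H e) (w : V) : g w - w ∈ pl (F := F) e := by
  rw [← perp_perp C.nondeg (pl e), mem_perp]
  intro x hx
  have hx' := hg.2 x (mem_perp_iff.1 hx)
  have h1 := polar_map (C.isom hg.1) x w
  rw [hx'] at h1
  rw [polar_sub_right, h1, sub_self]

omit [Fintype ι] in
theorem radP_pow [FiniteDimensional F V] (C : Ctx Q b F₀ H) (Fr : Frame Q b F₀ e f)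
    {g : V ≃ₗ[F] V} (hg : g ∈ radP Q H e) (m : ℕ) (w : V) :
    (g ^ m) w = w + (m : F) • (g w - w) := by
  induction m with
  | zero => simp
  | succ m ih =>
    have h1 : (g ^ (m + 1)) w = g ((g ^ m) w) := by rw [pow_succ']; rfl
    have h2 : g (g w - w) = g w - w := by
      apply hg.2
      exact mem_perp_iff.1 (Fr.pl_le_perp (radP_sub C hg w))
    rw [h1, ih, map_add, map_smul, h2]
    push_cast
    module

omit [Fintype ι] in
theorem radP_comm [FiniteDimensional F V] (C : Ctx Q b F₀ H) (Fr : Frame Q b F₀ e f)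
    {g h : V ≃ₗ[F] V} (hg : g ∈ radP Q H e) (hh : h ∈ radP Q H e) : g * h = h * g := by
  ext w
  show g (h w) = h (g w)
  have h1 : g (h w - w) = h w - w := hg.2 _ (mem_perp_iff.1 (Fr.pl_le_perp (radP_sub C hh w)))
  have h2 : h (g w - w) = g w - w := hh.2 _ (mem_perp_iff.1 (Fr.pl_le_perp (radP_sub C hg w)))
  have e1 : g (h w) = g (h w - w) + g w := by rw [map_sub]; abel
  have e2 : h (g w) = h (g w - w) + h w := by rw [map_sub]; abel
  rw [e1, e2, h1, h2]
  abel

theorem siegel_mem_radP (C : Ctx Q b F₀ H) (Fr : Frame Q b F₀ e f) (i j : Fin 3) :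
    siegel Q (e i) (e j) (Fr.Qe i) (Fr.ee i j) ∈ radP Q H e := by
  refine ⟨(C.has (e i) (Fr.e_mem i) (e j) (Fr.e_mem j) (Fr.Qe i) (Fr.ee i j)).mem _ _,
    fun v hv => siegel_fix _ _ (hv i) (hv j)⟩

omit [Fintype ι] in
theorem radP_not_cyclic [FiniteDimensional F V] [Fintype ι] (C : Ctx Q b F₀ H)
    (Fr : Frame Q b F₀ e f) : ¬ IsCyclic (radP Q H e) := by
  intro hc
  have : Finite (V ≃ₗ[F] V) := by
    have : Finite V := Module.finite_of_finite F
    exact Finite.of_injective (fun g : V ≃ₗ[F] V => (g : V → V)) DFunLike.coe_injective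
  obtain ⟨⟨g, hg⟩, hgen⟩ := IsCyclic.exists_monoid_generator (α := radP Q H e)
  obtain ⟨i, hi⟩ := hgen ⟨_, siegel_mem_radP C Fr 0 1⟩
  obtain ⟨j, hj⟩ := hgen ⟨_, siegel_mem_radP C Fr 0 2⟩
  have hi' : g ^ i = siegel Q (e 0) (e 1) (Fr.Qe 0) (Fr.ee 0 1) := congrArg Subtype.val hi
  have hj' : g ^ j = siegel Q (e 0) (e 2) (Fr.Qe 0) (Fr.ee 0 2) := congrArg Subtype.val hj
  have e1 : (i : F) • (g (f 0) - f 0) = e 1 := by
    have h1 := radP_pow C Fr hg i (f 0)
    rw [hi', siegel_apply, Fr.Qe, Fr.ef, Fr.ef] at h1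
    simp only [if_true, Fin.isValue, one_ne_zero, if_false, one_smul, zero_smul, zero_mul,
      sub_zero] at h1
    exact (add_left_cancel h1).symm
  have e2 : (j : F) • (g (f 0) - f 0) = e 2 := by
    have h1 := radP_pow C Fr hg j (f 0)
    rw [hj', siegel_apply, Fr.Qe, Fr.ef, Fr.ef] at h1
    simp only [if_true, Fin.isValue, if_false, one_smul, zero_smul, zero_mul,
      sub_zero, Fin.reduceEq] at h1
    exact (add_left_cancel h1).symm
  have h3 : (j : F) • e 1 = (i : F) • e 2 := by
    rw [← e1, ← e2, smul_smul, smul_smul, mul_comm]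
  have h4 : (j : F) = 0 := by
    have := congrArg (fun z => polar Q (f 1) z) h3
    simp only [polar_smul_right, Fr.fe] at this
    simpa using this
  rw [h4, zero_smul] at e2
  have h5 := Fr.ef 2 2
  rw [← e2, polar_zero_left] at h5
  simp at h5

theorem radP_le_stR (C : Ctx Q b F₀ H) (hn : 7 ≤ Fintype.card ι) (Fr : Frame Q b F₀ e f)
    {g : V ≃ₗ[F] V} (hg : g ∈ radP Q H e) : g ∈ stR b F₀ := by
  have h0 : e 0 ≠ 0 := by
    intro h
    have := Fr.ef 0 0
    rw [h, polar_zero_left] at this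
    simp at this
  refine C.stab_point hn hg.1 (Fr.e_mem 0) h0 (Fr.Qe 0) (a := 1) ?_
  rw [one_smul]
  exact hg.2 _ fun i => Fr.ee i 0

theorem radP_map_rat (C : Ctx Q b F₀ H) (hn : 7 ≤ Fintype.card ι) (Fr : Frame Q b F₀ e f)
    {g : V ≃ₗ[F] V} (hg : g ∈ radP Q H e) {v : V} (hv : v ∈ rat b F₀) : g v ∈ rat b F₀ := by
  have h0 : e 0 ≠ 0 := by
    intro h
    have := Fr.ef 0 0
    rw [h, polar_zero_left] at this
    simp at this
  exact map_rat_of_fix (radP_le_stR C hn Fr hg) (Fr.e_mem 0) h0 (hg.2 _ fun i => Fr.ee i 0) hv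

/-- Centralisers of nonidentity elements of the radical group. -/
theorem radP_cent (C : Ctx Q b F₀ H) (hn : 7 ≤ Fintype.card ι) (Fr : Frame Q b F₀ e f)
    {g : V ≃ₗ[F] V} (hg : g ∈ radP Q H e) (hg1 : g ≠ 1) {n : V ≃ₗ[F] V} (hnH : n ∈ H)
    (hcomm : n * g = g * n) : n ∈ stR b F₀ := by
  have : Module.Finite F V := Module.Finite.of_basis b
  have hfin : Module.finrank F V = Fintype.card ι := Module.finrank_eq_card_basis b
  set D := LinearMap.range (g.toLinearMap - LinearMap.id) with hD
  have hDpl : D ≤ pl (F := F) e := by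
    rintro _ ⟨w, rfl⟩
    exact radP_sub C hg w
  have hD0 : D ≠ ⊥ := by
    intro h0
    apply hg1
    ext w
    have h1 : (g.toLinearMap - LinearMap.id : V →ₗ[F] V) w ∈ D := ⟨w, rfl⟩
    rw [h0, Submodule.mem_bot] at h1
    exact sub_eq_zero.1 h1
  have hRat : RatSub b F₀ D := ratSub_range fun v hv => radP_map_rat C (by omega) Fr hg hv
  have hst : ∀ x ∈ D, n x ∈ D := by
    rintro _ ⟨w, rfl⟩
    refine ⟨n w, ?_⟩
    show g (n w) - n w = n (g w - w)
    have h1 : n (g w) = g (n w) := LinearEquiv.congr_fun hcomm w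
    rw [map_sub, h1]
  have hst' := Cfsg.Agent.H883.Bridge.mem_stab_of_le hst
  refine C.stab_sub (by omega) hnH hD0 (fun x hx => Fr.Q_pl (hDpl hx)) ?_ hRat ?_
  · apply not_perp_le C.nondeg
    have h1 := Submodule.finrank_mono hDpl
    have h2 := finrank_pl_le (F := F) (e := e)
    omega
  · have e : D.comap (n : V →ₗ[F] V) = D := by
      ext x
      exact (hst' x).symm
    rw [e]
    exact hRat

end Rad

/-- **A thin overgroup of the normaliser of a rational structure is contained in it.** -/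
theorem Ctx.le_stR (C : Ctx Q b F₀ H) (hn : 7 ≤ Fintype.card ι) {r : ℕ} (hr : r.Prime)
    (hcard : Nat.card F = Nat.card F₀ ^ r) : H ≤ stR b F₀ := by
  intro h hh
  by_contra hnot
  have hmf : Module.Finite F V := Module.Finite.of_basis b
  have hfin : Module.finrank F V = Fintype.card ι := Module.finrank_eq_card_basis b
  have hVfin : Finite V := Module.finite_of_finite F
  have hGfin : Finite (V ≃ₗ[F] V) :=
    Finite.of_injective (fun g : V ≃ₗ[F] V => (g : V → V)) DFunLike.coe_injective
  obtain ⟨e, f, Fr⟩ := exists_frame C.nondeg C.isRat hn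
  have hhO := C.isom hh
  have hne : ∀ i, e i ≠ 0 := by
    intro i h0
    have := Fr.ef i i
    rw [h0, polar_zero_left, if_pos rfl] at this
    exact zero_ne_one this
  have hi₁ : ∀ c : F, e 0 ≠ c • e 1 := by
    intro c hc
    have := Fr.ef 0 0
    rw [hc, polar_smul_left, Fr.ef] at this
    simp at this
  have hi₂ : ∀ c : F, e 1 ≠ c • e 0 := by
    intro c hc
    have := Fr.ef 1 1
    rw [hc, polar_smul_left, Fr.ef] at this
    simp at this
  set a := h (e 0) with ha
  set b' := h (e 1) with hb'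
  have hsa : Q a = 0 := by rw [ha, mem_O.1 hhO, Fr.Qe]
  have hab : polar Q a b' = 0 := by rw [ha, hb', polar_map hhO, Fr.ee]
  have hynot : siegel Q a b' hsa hab ∉ stR b F₀ :=
    C.root_not_mem (by omega) hh hnot (Fr.e_mem 0) (Fr.e_mem 1) (Fr.Qe 0) (Fr.Qe 1) (Fr.ee 0 1)
      hi₁ hi₂ hsa hab
  have hyH : siegel Q a b' hsa hab ∈ H :=
    ((C.has (e 0) (Fr.e_mem 0) (e 1) (Fr.e_mem 1) (Fr.Qe 0) (Fr.ee 0 1)).map hhO hh).mem _ _
  have hopp : ∀ {u₁ u₂ : V}, u₁ ∈ rat b F₀ → u₂ ∈ rat b F₀ → Q u₁ = 0 → Q u₂ = 0 →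
      polar Q u₁ u₂ = 0 → u₁ ≠ 0 → ∀ {α β : F}, polar Q (α • u₁ + β • u₂) a = 0 →
      polar Q (α • u₁ + β • u₂) b' = 0 → α • u₁ + β • u₂ = 0 := by
    intro u₁ u₂ h1 h2 h3 h4 h5 h6 α β h7 h8
    exact C.opp (by omega) hh hnot (Fr.e_mem 0) (Fr.e_mem 1) (Fr.Qe 0) (Fr.Qe 1) (Fr.ee 0 1)
      hi₁ hi₂ h1 h2 h3 h4 h5 h6 h7 h8
  -- pairings
  set A : Fin 3 → F := fun i => polar Q (e i) a with hA
  set B : Fin 3 → F := fun i => polar Q (e i) b' with hB
  have hAi : ∀ i, polar Q (e i) a = A i := fun _ => rfl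
  have hBi : ∀ i, polar Q (e i) b' = B i := fun _ => rfl
  -- the determinant for the line `e 0, e 1` is nonzero
  have hdet : A 0 * B 1 - A 1 * B 0 ≠ 0 := by
    intro h0
    by_cases hz : A 0 = 0 ∧ A 1 = 0
    · -- then combine using `B`
      have h1 := hopp (Fr.e_mem 0) (Fr.e_mem 1) (Fr.Qe 0) (Fr.Qe 1) (Fr.ee 0 1) (hne 0)
        (α := B 1) (β := -B 0)
        (by rw [polar_add_left, polar_smul_left, polar_smul_left, hAi, hAi, hz.1, hz.2]; simp)
        (by rw [polar_add_left, polar_smul_left, polar_smul_left, hBi, hBi]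
            simp only [smul_eq_mul]; ring)
      have hB1 : B 1 = 0 := by
        have := congrArg (fun z => polar Q (f 0) z) h1
        simp only [polar_add_right, polar_smul_right, Fr.fe, polar_zero_right] at this
        simpa using this
      have h2 := hopp (Fr.e_mem 0) (Fr.e_mem 1) (Fr.Qe 0) (Fr.Qe 1) (Fr.ee 0 1) (hne 0)
        (α := 0) (β := 1)
        (by rw [zero_smul, zero_add, one_smul, hAi, hz.2])
        (by rw [zero_smul, zero_add, one_smul, hBi, hB1])
      rw [zero_smul, zero_add, one_smul] at h2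
      exact hne 1 h2
    · have h1 := hopp (Fr.e_mem 0) (Fr.e_mem 1) (Fr.Qe 0) (Fr.Qe 1) (Fr.ee 0 1) (hne 0)
        (α := A 1) (β := -A 0)
        (by rw [polar_add_left, polar_smul_left, polar_smul_left, hAi, hAi]
            simp only [smul_eq_mul]; ring)
        (by rw [polar_add_left, polar_smul_left, polar_smul_left, hBi, hBi]
            simp only [smul_eq_mul]; linear_combination -h0)
      apply hz
      constructor
      · have := congrArg (fun z => polar Q (f 1) z) h1
        simp only [polar_add_right, polar_smul_right, Fr.fe, polar_zero_right] at this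
        simpa using this
      · have := congrArg (fun z => polar Q (f 0) z) h1
        simp only [polar_add_right, polar_smul_right, Fr.fe, polar_zero_right] at this
        simpa using this
  -- the vector `k`
  set k : Fin 3 → F := ![A 1 * B 2 - A 2 * B 1, A 2 * B 0 - A 0 * B 2, A 0 * B 1 - A 1 * B 0]
    with hk
  have hk0 : k 0 = A 1 * B 2 - A 2 * B 1 := rfl
  have hk1 : k 1 = A 2 * B 0 - A 0 * B 2 := rfl
  have hk2 : k 2 = A 0 * B 1 - A 1 * B 0 := rfl
  set kv : V := k 0 • e 0 + k 1 • e 1 + k 2 • e 2 with hkv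
  have hkva : polar Q kv a = 0 := by
    rw [hkv, polar_add_left, polar_add_left, polar_smul_left, polar_smul_left, polar_smul_left,
      hAi, hAi, hAi, hk0, hk1, hk2]
    simp only [smul_eq_mul]; ring
  have hkvb : polar Q kv b' = 0 := by
    rw [hkv, polar_add_left, polar_add_left, polar_smul_left, polar_smul_left, polar_smul_left,
      hBi, hBi, hBi, hk0, hk1, hk2]
    simp only [smul_eq_mul]; ring
  have hkpl : kv ∈ pl (F := F) e := by
    rw [hkv]
    exact Submodule.add_mem _ (Submodule.add_mem _ (Submodule.smul_mem _ _ (e_mem_pl 0))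
      (Submodule.smul_mem _ _ (e_mem_pl 1))) (Submodule.smul_mem _ _ (e_mem_pl 2))
  have hfk : ∀ i, polar Q (f i) kv = k i := by
    intro i
    rw [hkv]
    simp only [polar_add_right, polar_smul_right, Fr.fe]
    fin_cases i <;> simp
  have hkv0 : kv ≠ 0 := by
    intro h0
    have := hfk 2
    rw [h0, polar_zero_right] at this
    exact hdet (by rw [← hk2, ← this])
  -- `k` is `F₀`-independent
  have hind : ∀ m : Fin 3 → F, (∀ i, m i ∈ F₀) → ∑ i, m i * k i = 0 → m = 0 := by
    intro m hm hsum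
    by_contra hm0
    obtain ⟨i, hi⟩ := Function.ne_iff.1 hm0
    rw [Pi.zero_apply] at hi
    -- the two other indices
    obtain ⟨j, l, hjl, hij, hil, hall⟩ : ∃ j l : Fin 3, j ≠ l ∧ i ≠ j ∧ i ≠ l ∧
        ∀ g : Fin 3 → V, ∑ x, g x = g i + g j + g l := by
      fin_cases i
      · exact ⟨1, 2, by decide, by decide, by decide, fun g => by rw [Fin.sum_univ_three]; rfl⟩
      · exact ⟨0, 2, by decide, by decide, by decide, fun g => by
          rw [Fin.sum_univ_three]; show g 0 + g 1 + g 2 = g 1 + g 0 + g 2; abel⟩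
      · exact ⟨0, 1, by decide, by decide, by decide, fun g => by
          rw [Fin.sum_univ_three]; show g 0 + g 1 + g 2 = g 2 + g 0 + g 1; abel⟩
    have hall' : ∑ x, m x * k x = m i * k i + m j * k j + m l * k l := by
      have hn2 : (Finset.univ : Finset (Fin 3)) = {i, j, l} := by
        symm
        apply Finset.eq_univ_of_card
        rw [Finset.card_insert_of_notMem (by simp [hij, hil]), Finset.card_pair hjl]
        rfl
      rw [hn2, Finset.sum_insert (by simp [hij, hil]), Finset.sum_pair hjl]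
      ring
    rw [hall'] at hsum
    have hki : k i = -((m i)⁻¹ * m j) * k j - ((m i)⁻¹ * m l) * k l := by
      have h1 : m i * k i = -(m j * k j + m l * k l) := by linear_combination hsum
      have h2 : k i = (m i)⁻¹ * (m i * k i) := by
        rw [← mul_assoc, inv_mul_cancel₀ hi, one_mul]
      rw [h2, h1]; ring
    set s := (m i)⁻¹ * m j with hs
    set t := (m i)⁻¹ * m l with ht
    have hsF : s ∈ F₀ := F₀.mul_mem (F₀.inv_mem (hm i)) (hm j)
    have htF : t ∈ F₀ := F₀.mul_mem (F₀.inv_mem (hm i)) (hm l)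
    have hkv' : kv = k j • (e j - s • e i) + k l • (e l - t • e i) := by
      have h1 : kv = ∑ x, k x • e x := by rw [Fin.sum_univ_three]
      rw [h1, hall, hki]
      module
    have hR : ∀ (x : F) (j : Fin 3), x ∈ F₀ → e j - x • e i ∈ rat b F₀ := fun x j hx =>
      (rat b F₀).sub_mem (Fr.e_mem j) (rat_smul hx (Fr.e_mem i))
    have hpl : ∀ (x : F) (j : Fin 3), e j - x • e i ∈ pl (F := F) e := fun x j =>
      Submodule.sub_mem _ (e_mem_pl j) (Submodule.smul_mem _ _ (e_mem_pl i))
    have hpp : polar Q (e j - s • e i) (e l - t • e i) = 0 := by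
      rw [polar_sub_left, polar_sub_right, polar_sub_right, polar_smul_left, polar_smul_left,
        polar_smul_right, polar_smul_right]
      simp only [Fr.ee]
      simp
    have hne' : e j - s • e i ≠ 0 := by
      intro h0
      have := congrArg (fun z => polar Q (f j) z) h0
      simp only [polar_sub_right, polar_smul_right, Fr.fe, polar_zero_right] at this
      simp [hij] at this
    have h1 := hopp (hR s j hsF) (hR t l htF) (Fr.Q_pl (hpl s j)) (Fr.Q_pl (hpl t l)) hpp hne'
      (α := k j) (β := k l) (by rw [← hkv']; exact hkva) (by rw [← hkv']; exact hkvb)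
    exact hkv0 (by rw [hkv', h1])
  -- the group `G`
  let G : Subgroup (V ≃ₗ[F] V) :=
    { carrier := {g | g ∈ H ∧ g kv = kv ∧ ∀ v, (∀ i, polar Q (e i) v = 0) → polar Q a v = 0 →
        polar Q b' v = 0 → g v = v}
      mul_mem' := fun {g g'} hg hg' => ⟨H.mul_mem hg.1 hg'.1,
        by show g (g' kv) = kv; rw [hg'.2.1, hg.2.1],
        fun v h1 h2 h3 => by show g (g' v) = v; rw [hg'.2.2 v h1 h2 h3, hg.2.2 v h1 h2 h3]⟩
      one_mem' := ⟨H.one_mem, rfl, fun _ _ _ _ => rfl⟩
      inv_mem' := fun {g} hg => ⟨H.inv_mem hg.1, by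
          have h2 : g⁻¹ (g kv) = kv := LinearEquiv.symm_apply_apply g kv
          rwa [hg.2.1] at h2, fun v h1 h2 h3 => by
          have h4 : g⁻¹ (g v) = v := LinearEquiv.symm_apply_apply g v
          rwa [hg.2.2 v h1 h2 h3] at h4⟩ }
  have hmemG : ∀ g : V ≃ₗ[F] V, g ∈ G ↔ (g ∈ H ∧ g kv = kv ∧ ∀ v, (∀ i, polar Q (e i) v = 0) →
      polar Q a v = 0 → polar Q b' v = 0 → g v = v) := fun _ => Iff.rfl
  have hPG : radP Q H e ≤ G := by
    intro g hg
    refine ⟨hg.1, ?_, fun v h1 _ _ => hg.2 v h1⟩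
    exact hg.2 _ (mem_perp_iff.1 (Fr.pl_le_perp hkpl))
  have hyG : siegel Q a b' hsa hab ∈ G := by
    refine ⟨hyH, ?_, fun v _ h2 h3 => siegel_fix _ _ h2 h3⟩
    exact siegel_fix _ _ (by rw [polar_comm]; exact hkva) (by rw [polar_comm]; exact hkvb)
  obtain ⟨p, hp⟩ := CharP.exists F
  have : Fact p.Prime := ⟨CharP.char_is_prime F p⟩
  have key := Cfsg.Agent.H888.StrongP.le_of_self_normalizing (p := p) (radP Q H e) G (stR b F₀)
    hPG ?_ (fun x hx y hy => radP_comm C Fr hx hy) (radP_not_cyclic C Fr)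
    (fun x hx => radP_le_stR C (by omega) Fr hx)
    (fun g hg hg1 n hn' hc => radP_cent C hn Fr hg hg1 hn'.1 hc) ?_
  · exact hynot (key hyG)
  · -- p-group
    rintro ⟨g, hg⟩
    refine ⟨1, Subtype.ext ?_⟩
    show g ^ (p ^ 1) = 1
    ext w
    rw [pow_one, radP_pow C Fr hg, CharP.cast_eq_zero, zero_smul, add_zero]
    rfl
  · -- self-normalising
    intro n hnG hnP
    -- `n` stabilises the plane
    have hnpl' : ∀ g ∈ radP Q H e, ∀ t, n (g t - t) ∈ pl (F := F) e := by
      intro g hg t
      have h1 := radP_sub C (hnP g hg) (n t)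
      have h2 : (n * g * n⁻¹) (n t) = n (g t) := by
        show n (g (n⁻¹ (n t))) = n (g t)
        have : n⁻¹ (n t) = t := LinearEquiv.symm_apply_apply n t
        rw [this]
      rw [h2, ← map_sub] at h1
      exact h1
    have hn0 : n (e 0) ∈ pl (F := F) e := by
      have h1 := hnpl' _ (siegel_mem_radP C Fr 1 0) (f 1)
      rw [siegel_apply, Fr.Qe, Fr.ef, Fr.ef] at h1
      simp only [if_true, Fin.isValue, zero_ne_one, if_false, one_smul, zero_smul, zero_mul,
        sub_zero, add_sub_cancel_left] at h1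
      exact h1
    have hn1 : n (e 1) ∈ pl (F := F) e := by
      have h1 := hnpl' _ (siegel_mem_radP C Fr 0 1) (f 0)
      rw [siegel_apply, Fr.Qe, Fr.ef, Fr.ef] at h1
      simp only [if_true, Fin.isValue, one_ne_zero, if_false, one_smul, zero_smul, zero_mul,
        sub_zero, add_sub_cancel_left] at h1
      exact h1
    have hn2 : n (e 2) ∈ pl (F := F) e := by
      have h1 := hnpl' _ (siegel_mem_radP C Fr 0 2) (f 0)
      rw [siegel_apply, Fr.Qe, Fr.ef, Fr.ef] at h1
      simp only [if_true, Fin.isValue, if_false, one_smul, zero_smul, zero_mul,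
        sub_zero, add_sub_cancel_left, Fin.reduceEq] at h1
      exact h1
    have hnall : ∀ i, n (e i) ∈ pl (F := F) e := by
      intro i
      fin_cases i
      exacts [hn0, hn1, hn2]
    have hnst : ∀ x ∈ pl (F := F) e, n x ∈ pl (F := F) e := by
      intro x hx
      rw [Fr.exists_coord hx, map_sum]
      refine Submodule.sum_mem _ fun i _ => ?_
      rw [map_smul]
      exact Submodule.smul_mem _ _ (hnall i)
    have hst' := Cfsg.Agent.H883.Bridge.mem_stab_of_le hnst
    have hnR : n ∈ stR b F₀ := by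
      refine C.stab_sub (by omega) hnG.1 ?_ (fun x hx => Fr.Q_pl hx) ?_ Fr.ratSub_pl ?_
      · intro h0
        have h1 := e_mem_pl (F := F) (e := e) 0
        rw [h0] at h1
        exact hne 0 ((Submodule.mem_bot F).1 h1)
      · apply not_perp_le C.nondeg
        have h2 := finrank_pl_le (F := F) (e := e)
        omega
      · have e' : (pl (F := F) e).comap (n : V →ₗ[F] V) = pl e := by
          ext x
          exact (hst' x).symm
        rw [e']
        exact Fr.ratSub_pl
    obtain ⟨c, hc, hcn⟩ := hnR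
    have hnO := C.isom hnG.1
    have hc2 : c ^ 2 ∈ F₀ := by
      have h1 := (hcn (e 0 + f 0)).1 ((rat b F₀).add_mem (Fr.e_mem 0) (Fr.f_mem 0))
      have h2 := C.isRat _ h1
      rw [QuadraticMap.map_smul, mem_O.1 hnO, Q_add, Fr.Qe, Fr.Qf, Fr.ef] at h2
      simp only [if_true, zero_add, smul_eq_mul, mul_one] at h2
      rwa [pow_two]
    have hcF : c ∈ F₀ := by
      rcases Cfsg.Agent.H888.FieldDich.sq_mem F₀ hr hcard hc2 with h1 | h1
      · exact h1
      · exfalso
        obtain ⟨m, hm, hm0, hsum⟩ := exists_relation F₀ h1 k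
        exact hm0 (hind m hm hsum)
    have hnrat : ∀ v ∈ rat b F₀, n v ∈ rat b F₀ := by
      intro v hv
      have h1 := rat_smul (F₀.inv_mem hcF) ((hcn v).1 hv)
      rwa [smul_smul, inv_mul_cancel₀ hc, one_smul] at h1
    -- `n` is trivial on the plane
    have hne1 : ∀ i, n (e i) = e i := by
      have hcoord : ∀ j, ∑ i, (polar Q (f j) (n (e i)) - if i = j then 1 else 0) * k i = 0 := by
        intro j
        have h1 : polar Q (f j) (n kv) = k j := by rw [hnG.2.1, hfk]
        rw [hkv] at h1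
        simp only [map_add, map_smul, polar_add_right, polar_smul_right, smul_eq_mul] at h1
        rw [Fin.sum_univ_three]
        fin_cases j
        · simp only [Fin.zero_eta, Fin.isValue, if_true, one_ne_zero, if_false, sub_zero,
            Fin.reduceEq] at h1 ⊢
          linear_combination h1
        · simp only [Fin.mk_one, Fin.isValue, if_true, zero_ne_one, if_false, sub_zero,
            Fin.reduceEq] at h1 ⊢
          linear_combination h1
        · simp only [Fin.reduceFinMk, Fin.isValue, if_true, if_false, sub_zero,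
            Fin.reduceEq] at h1 ⊢
          linear_combination h1
      intro i
      have h2 : ∀ j, polar Q (f j) (n (e i)) = if i = j then 1 else 0 := by
        intro j
        have h3 := hind (fun i => polar Q (f j) (n (e i)) - if i = j then 1 else 0) ?_ (hcoord j)
        · have h4 := congrFun h3 i
          exact sub_eq_zero.1 h4
        · intro i
          refine F₀.sub_mem (C.isRat.polar (Fr.f_mem j) (hnrat _ (Fr.e_mem i))) ?_
          split_ifs
          · exact F₀.one_mem
          · exact F₀.zero_mem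
      rw [Fr.exists_coord (hnall i)]
      simp_rw [h2]
      simp
    -- conclusion
    refine ⟨hnG.1, fun v hv => ?_⟩
    -- correct `v` by an element of the plane
    set d := A 0 * B 1 - A 1 * B 0 with hd
    set x := polar Q a v with hx
    set y := polar Q b' v with hy
    set s : V := (d⁻¹ * (x * B 1 - y * A 1)) • e 0 + (d⁻¹ * (A 0 * y - B 0 * x)) • e 1 with hs
    have hsa' : polar Q a s = x := by
      rw [hs, polar_add_right, polar_smul_right, polar_smul_right, polar_comm Q a, hAi,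
        polar_comm Q a, hAi]
      simp only [smul_eq_mul]
      have : d⁻¹ * (x * B 1 - y * A 1) * A 0 + d⁻¹ * (A 0 * y - B 0 * x) * A 1 = d⁻¹ * d * x := by
        rw [hd]; ring
      rw [this, inv_mul_cancel₀ hdet, one_mul]
    have hsb' : polar Q b' s = y := by
      rw [hs, polar_add_right, polar_smul_right, polar_smul_right, polar_comm Q b', hBi,
        polar_comm Q b', hBi]
      simp only [smul_eq_mul]
      have : d⁻¹ * (x * B 1 - y * A 1) * B 0 + d⁻¹ * (A 0 * y - B 0 * x) * B 1 = d⁻¹ * d * y := by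
        rw [hd]; ring
      rw [this, inv_mul_cancel₀ hdet, one_mul]
    have hns : n s = s := by
      rw [hs, map_add, map_smul, map_smul, hne1, hne1]
    have hes : ∀ i, polar Q (e i) s = 0 := by
      intro i
      rw [hs, polar_add_right, polar_smul_right, polar_smul_right, Fr.ee, Fr.ee]
      simp
    have h1 : n (v - s) = v - s := by
      refine hnG.2.2 _ (fun i => ?_) ?_ ?_
      · rw [polar_sub_right, hv i, hes i, sub_zero]
      · rw [polar_sub_right, hsa', ← hx, sub_self]
      · rw [polar_sub_right, hsb', ← hy, sub_self]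
    have h2 : n v = n (v - s) + n s := by rw [← map_add, sub_add_cancel]
    rw [h2, h1, hns, sub_add_cancel]

/-- **Overgroups of the normaliser of a rational structure.** -/
theorem overgroups {H : Subgroup (V ≃ₗ[F] V)} (hQ : Nondeg Q) (hR : IsRat Q b F₀)
    (hn : 7 ≤ Fintype.card ι) {r : ℕ} (hr : r.Prime) (hcard : Nat.card F = Nat.card F₀ ^ r)
    (hle : stR b F₀ ⊓ E Q ≤ H) (hHE : H ≤ E Q) : H = stR b F₀ ⊓ E Q ∨ H = E Q := by
  rcases thin_or_E_le hQ hR hn hr hcard (hasRat_of_le hR hle) with h | h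
  · left
    have C : Ctx Q b F₀ H := ⟨hQ, hR, hle, hHE, h⟩
    exact le_antisymm (le_inf (C.le_stR hn hr hcard) hHE) hle
  · right
    exact le_antisymm hHE h

end Cfsg.Agent.H888.Rat
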