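import Cfsg.Agent.H888.RatStab

/-!
A root element of a thin overgroup `H` outside the normaliser of the rational structure is opposite to
every rational totally singular line.
-/

set_option autoImplicit false

namespace Cfsg.Agent.H888.Rat

open QuadraticMap hiding proj
open Cfsg.Agent.LieClassical.OrthCore Cfsg.Agent.LieClassical.OrthTrans
  Cfsg.Agent.LieClassical.OrthFinite Cfsg.Agent.H883.Root Cfsg.Agent.H883.Sub

variable {F V : Type*} [Field F] [AddCommGroup V] [Module F V] {ι : Type*}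
variable {b : Module.Basis ι F V} {F₀ : Subfield F} {Q : QuadraticForm F V}
variable {H : Subgroup (V ≃ₗ[F] V)}

/-- Change of basis of the line of a root element. -/
theorem has_line {u₁ u₂ : V} (h : Has Q H u₁ u₂) (h2 : Q u₂ = 0) {α β γ δ : F}
    (hd : α * δ - β * γ = 1) : Has Q H (α • u₁ + β • u₂) (γ • u₁ + δ • u₂) := by
  have h1 := h.sing
  have h12 := h.perp
  have h21 : polar Q u₂ u₁ = 0 := by rw [polar_comm]; exact h12
  have h11 : polar Q u₁ u₁ = 0 := polar_self_of_sing h1
  have h22 : polar Q u₂ u₂ = 0 := polar_self_of_sing h2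
  have hs : ∀ x y : F, Q (x • u₁ + y • u₂) = 0 := by
    intro x y
    rw [Q_add, QuadraticMap.map_smul, QuadraticMap.map_smul, h1, h2, polar_smul_left,
      polar_smul_right, h12]
    simp
  have hp : polar Q (α • u₁ + β • u₂) (γ • u₁ + δ • u₂) = 0 := by
    simp only [polar_add_left, polar_add_right, polar_smul_left, polar_smul_right, h12, h21, h11,
      h22, smul_zero, add_zero]
  refine ⟨hs _ _, hp, ?_⟩
  have e : siegel Q (α • u₁ + β • u₂) (γ • u₁ + δ • u₂) (hs _ _) hp = siegel Q u₁ u₂ h1 h12 := by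
    ext t
    rw [siegel_apply, siegel_apply, hs, h2]
    simp only [polar_add_left, polar_smul_left, smul_eq_mul, zero_mul, zero_smul, sub_zero]
    have e1 : polar Q u₁ t • u₂ - polar Q u₂ t • u₁ =
        (α * δ - β * γ) • (polar Q u₁ t • u₂ - polar Q u₂ t • u₁) := by rw [hd, one_smul]
    have e2 : t + polar Q u₁ t • u₂ - polar Q u₂ t • u₁ =
        t + (polar Q u₁ t • u₂ - polar Q u₂ t • u₁) := by module
    rw [e2, e1]
    module
  rw [e]
  exact h.2.2

theorem siegel_pow {u w : V} (hu : Q u = 0) (hw : polar Q u w = 0) (m : ℕ)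
    (hm : polar Q u ((m : F) • w) = 0) :
    (siegel Q u w hu hw) ^ m = siegel Q u ((m : F) • w) hu hm := by
  induction m with
  | zero =>
    rw [pow_zero]
    ext t
    rw [siegel_apply]
    simp
  | succ m ih =>
    have hm' : polar Q u ((m : F) • w) = 0 := by rw [polar_smul_right, hw, smul_zero]
    have h1 : polar Q u ((m : F) • w + w) = 0 := by rw [polar_add_right, hm', hw, add_zero]
    rw [pow_succ, ih hm', siegel_mul hu hm' hw h1]
    congr 1
    push_cast
    rw [add_smul, one_smul]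

theorem siegel_pow_char {p : ℕ} [CharP F p] {u w : V} (hu : Q u = 0) (hw : polar Q u w = 0) :
    (siegel Q u w hu hw) ^ p = 1 := by
  have hp : polar Q u ((p : F) • w) = 0 := by rw [polar_smul_right, hw, smul_zero]
  rw [siegel_pow hu hw p hp]
  ext t
  rw [siegel_apply, CharP.cast_eq_zero, zero_smul]
  simp

/-- An element of order `p` normalising the rational structure preserves it. -/
theorem map_rat_of_pow [Finite F] {p : ℕ} [Fact p.Prime] [CharP F p] {k : V ≃ₗ[F] V}
    (hk : k ∈ stR b F₀) (hkp : k ^ p = 1) {v : V} (hv : v ∈ rat b F₀) : k v ∈ rat b F₀ := by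
  by_cases hv0 : v = 0
  · rw [hv0, map_zero]; exact (rat b F₀).zero_mem
  obtain ⟨c, hc, h⟩ := hk
  have h1 : ∀ m : ℕ, c ^ m • (k ^ m) v ∈ rat b F₀ := by
    intro m
    induction m with
    | zero => rw [pow_zero, pow_zero, one_smul]; exact hv
    | succ m ih =>
      have h2 := (h _).1 ih
      rw [map_smul, smul_smul, ← pow_succ'] at h2
      have h3 : k ((k ^ m) v) = (k ^ (m + 1)) v := by
        rw [pow_succ' k]; rfl
      rwa [h3] at h2
  have h2 := h1 p
  rw [hkp] at h2
  have h3 : c ^ p ∈ F₀ := mem_of_smul_mem hv hv0 h2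
  have h4 : c ∈ F₀ := Cfsg.Agent.H888.FieldDich.mem_of_pow_mem F₀ h3
  have h5 := rat_smul (F₀.inv_mem h4) ((h v).1 hv)
  rwa [smul_smul, inv_mul_cancel₀ hc, one_smul] at h5

/-- `range (k - 1)` is rationally spanned if `k` preserves the rational structure. -/
theorem ratSub_range {k : V ≃ₗ[F] V} (hk : ∀ v ∈ rat b F₀, k v ∈ rat b F₀) :
    RatSub b F₀ (LinearMap.range (k.toLinearMap - LinearMap.id)) := by
  rintro _ ⟨v, rfl⟩
  have h1 : (⊤ : Submodule F V) ≤ Submodule.span F (rat b F₀ : Set V) := by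
    rw [← b.span_eq]
    refine Submodule.span_mono ?_
    rintro _ ⟨i, rfl⟩
    exact basis_mem i
  have hv : v ∈ Submodule.span F (rat b F₀ : Set V) := h1 trivial
  induction hv using Submodule.span_induction with
  | mem x hx =>
    refine Submodule.subset_span ⟨?_, ⟨x, rfl⟩⟩
    exact (rat b F₀).sub_mem (hk x hx) hx
  | zero => rw [map_zero]; exact Submodule.zero_mem _
  | add x y _ _ hx hy => rw [map_add]; exact Submodule.add_mem _ hx hy
  | smul c x _ hx => rw [map_smul]; exact Submodule.smul_mem _ _ hx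

/-- The line of a root element preserving the rational structure is rational. -/
theorem ratSub_of_siegel (hQ : Nondeg Q) {x y : V} (hx : Q x = 0) (hxy : polar Q x y = 0)
    (hy : Q y = 0) (h1 : ∀ c : F, x ≠ c • y) (h2 : ∀ c : F, y ≠ c • x)
    (hk : ∀ v ∈ rat b F₀, siegel Q x y hx hxy v ∈ rat b F₀) :
    RatSub b F₀ (Submodule.span F {x, y}) := by
  have e : Submodule.span F {x, y} =
      LinearMap.range ((siegel Q x y hx hxy).toLinearMap - LinearMap.id) := by
    apply le_antisymm
    · rw [Submodule.span_le]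
      obtain ⟨s, hs1, hs2⟩ := exists_sep hQ h1
      obtain ⟨t, ht1, ht2⟩ := exists_sep hQ h2
      rintro z (rfl | hz)
      · refine ⟨-t, ?_⟩
        show siegel Q _ y hx hxy (-t) - (-t) = _
        rw [siegel_apply, hy, polar_neg_right, polar_neg_right, ht1, ht2]
        module
      · rw [Set.mem_singleton_iff] at hz
        subst hz
        refine ⟨s, ?_⟩
        show siegel Q x _ hx hxy s - s = _
        rw [siegel_apply, hy, hs1, hs2]
        module
    · rintro _ ⟨v, rfl⟩
      show siegel Q x y hx hxy v - v ∈ _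
      rw [siegel_apply, hy]
      have e : v + polar Q x v • y - polar Q y v • x - (0 * polar Q x v) • x - v =
          polar Q x v • y - polar Q y v • x := by
        rw [zero_mul]; module
      rw [e]
      exact Submodule.sub_mem _ (Submodule.smul_mem _ _ (Submodule.subset_span (by simp)))
        (Submodule.smul_mem _ _ (Submodule.subset_span (by simp)))
  rw [e]
  exact ratSub_range hk

theorem not_perp_le [FiniteDimensional F V] (hQ : Nondeg Q) {D : Submodule F V}
    (h : 2 * Module.finrank F D < Module.finrank F V) : ¬ perp Q D ≤ D := by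
  intro hle
  have h1 := finrank_perp hQ D
  have h2 := Submodule.finrank_mono hle
  omega

theorem finrank_span_pair_le (x y : V) : Module.finrank F (Submodule.span F {x, y}) ≤ 2 := by
  classical
  have h := finrank_span_finset_le_card (R := F) ({x, y} : Finset V)
  rw [Finset.coe_pair] at h
  exact h.trans Finset.card_le_two

theorem sing_of_span_pair {x y : V} (hx : Q x = 0) (hxy : polar Q x y = 0) (hy : Q y = 0)
    {z : V} (hz : z ∈ Submodule.span F {x, y}) : Q z = 0 := by
  obtain ⟨s, t, rfl⟩ := Submodule.mem_span_pair.1 hz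
  rw [Q_add, QuadraticMap.map_smul, QuadraticMap.map_smul, hx, hy, polar_smul_left,
    polar_smul_right, hxy]
  simp

theorem comap_span_pair (h : V ≃ₗ[F] V) (x y : V) :
    (Submodule.span F {h x, h y}).comap (h : V →ₗ[F] V) = Submodule.span F {x, y} := by
  ext z
  rw [Submodule.mem_comap, Submodule.mem_span_pair, Submodule.mem_span_pair]
  constructor
  · rintro ⟨s, t, he⟩
    refine ⟨s, t, h.injective ?_⟩
    rw [map_add, map_smul, map_smul]
    exact he
  · rintro ⟨s, t, rfl⟩
    refine ⟨s, t, ?_⟩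
    show _ = h _
    rw [map_add, map_smul, map_smul]

variable [Fintype ι] [Finite F]

/-- **Lemma (line).**  `h ∈ H` mapping a rational line to a rational line normalises the structure. -/
theorem Ctx.line (C : Ctx Q b F₀ H) (hn : 7 ≤ Fintype.card ι) {h : V ≃ₗ[F] V} (hh : h ∈ H)
    {x y : V} (hx0 : x ≠ 0) (hx : Q x = 0) (hxy : polar Q x y = 0) (hy : Q y = 0)
    (hD : RatSub b F₀ (Submodule.span F {x, y}))
    (hD' : RatSub b F₀ ((Submodule.span F {x, y}).comap (h : V →ₗ[F] V))) : h ∈ stR b F₀ := by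
  have : Module.Finite F V := Module.Finite.of_basis b
  have hfin : Module.finrank F V = Fintype.card ι := Module.finrank_eq_card_basis b
  refine C.stab_sub hn hh ?_ (fun z hz => sing_of_span_pair hx hxy hy hz) ?_ hD hD'
  · intro h0
    have : x ∈ Submodule.span F {x, y} := Submodule.subset_span (by simp)
    rw [h0] at this
    exact hx0 ((Submodule.mem_bot F).1 this)
  · apply not_perp_le C.nondeg
    have := finrank_span_pair_le (F := F) x y
    omega

/-- The root elements attached to images of rational lines under `h ∉ stR` are not in `stR`. -/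
theorem Ctx.root_not_mem (C : Ctx Q b F₀ H) (hn : 7 ≤ Fintype.card ι) {h : V ≃ₗ[F] V} (hh : h ∈ H)
    (hnot : h ∉ stR b F₀) {e₁ e₂ : V} (he₁ : e₁ ∈ rat b F₀) (he₂ : e₂ ∈ rat b F₀)
    (hs₁ : Q e₁ = 0) (hs₂ : Q e₂ = 0) (h12 : polar Q e₁ e₂ = 0) (hi₁ : ∀ c : F, e₁ ≠ c • e₂)
    (hi₂ : ∀ c : F, e₂ ≠ c • e₁) (hu : Q (h e₁) = 0) (hw : polar Q (h e₁) (h e₂) = 0) :
    siegel Q (h e₁) (h e₂) hu hw ∉ stR b F₀ := by
  intro hmem
  obtain ⟨p, hp⟩ := CharP.exists F
  have : Fact p.Prime := ⟨CharP.char_is_prime F p⟩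
  have hk : ∀ v ∈ rat b F₀, siegel Q (h e₁) (h e₂) hu hw v ∈ rat b F₀ := fun v hv =>
    map_rat_of_pow (p := p) hmem (siegel_pow_char hu hw) hv
  have hs₂' : Q (h e₂) = 0 := by rw [mem_O.1 (C.isom hh), hs₂]
  have hD := ratSub_of_siegel C.nondeg hu hw hs₂'
    (fun c hc => hi₁ c (h.injective (by rw [hc, map_smul])))
    (fun c hc => hi₂ c (h.injective (by rw [hc, map_smul]))) hk
  apply hnot
  refine C.line hn hh (x := h e₁) (y := h e₂) ?_ hu hw hs₂' hD ?_
  · intro h0
    apply hi₁ 0
    rw [zero_smul]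
    exact h.map_eq_zero_iff.1 h0
  · rw [comap_span_pair]
    refine ratSub_span ?_
    rintro s (rfl | hs)
    · exact he₁
    · rw [Set.mem_singleton_iff] at hs
      rw [hs]; exact he₂

/-- **Opposition.** -/
theorem Ctx.opp (C : Ctx Q b F₀ H) (hn : 7 ≤ Fintype.card ι) {h : V ≃ₗ[F] V} (hh : h ∈ H)
    (hnot : h ∉ stR b F₀) {e₁ e₂ : V} (he₁ : e₁ ∈ rat b F₀) (he₂ : e₂ ∈ rat b F₀)
    (hs₁ : Q e₁ = 0) (hs₂ : Q e₂ = 0) (h12 : polar Q e₁ e₂ = 0) (hi₁ : ∀ c : F, e₁ ≠ c • e₂)
    (hi₂ : ∀ c : F, e₂ ≠ c • e₁)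
    {u₁ u₂ : V} (hu₁ : u₁ ∈ rat b F₀) (hu₂ : u₂ ∈ rat b F₀)
    (hsu₁ : Q u₁ = 0) (hsu₂ : Q u₂ = 0) (hu12 : polar Q u₁ u₂ = 0)
    (hj₁ : u₁ ≠ 0) {α β : F} (h1 : polar Q (α • u₁ + β • u₂) (h e₁) = 0)
    (h2 : polar Q (α • u₁ + β • u₂) (h e₂) = 0) : α • u₁ + β • u₂ = 0 := by
  by_contra hv0
  have hhO := C.isom hh
  set a := h e₁ with ha
  set b' := h e₂ with hb'
  have hsa : Q a = 0 := by rw [ha, mem_O.1 hhO, hs₁]
  have hsb : Q b' = 0 := by rw [hb', mem_O.1 hhO, hs₂]
  have hab : polar Q a b' = 0 := by rw [ha, hb', polar_map hhO, h12]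
  have hynot : siegel Q a b' hsa hab ∉ stR b F₀ :=
    C.root_not_mem hn hh hnot he₁ he₂ hs₁ hs₂ h12 hi₁ hi₂ hsa hab
  have hy : Has Q H a b' := (C.has e₁ he₁ e₂ he₂ hs₁ h12).map hhO hh
  set y := siegel Q a b' hsa hab with hydef
  have hyH : y ∈ H := hy.mem _ _
  have hind : ∀ s t : F, s • a + t • b' = 0 → s = 0 ∧ t = 0 := by
    intro s t hst
    have h3 : s • e₁ + t • e₂ = 0 := by
      apply h.injective
      rw [map_add, map_smul, map_smul, map_zero]
      exact hst
    constructor
    · by_contra hs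
      apply hi₁ (-(s⁻¹ * t))
      have h4 : e₁ = s⁻¹ • (s • e₁) := by rw [smul_smul, inv_mul_cancel₀ hs, one_smul]
      have h5 : s • e₁ = -(t • e₂) := eq_neg_of_add_eq_zero_left h3
      rw [h4, h5, smul_neg, smul_smul, neg_smul]
    · by_contra ht
      apply hi₂ (-(t⁻¹ * s))
      have h4 : e₂ = t⁻¹ • (t • e₂) := by rw [smul_smul, inv_mul_cancel₀ ht, one_smul]
      have h5 : t • e₂ = -(s • e₁) := eq_neg_of_add_eq_zero_right h3
      rw [h4, h5, smul_neg, smul_smul, neg_smul]
  -- a basis `v, v'` of the line of `u₁, u₂`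
  obtain ⟨γ, δ, hdet⟩ : ∃ γ δ : F, α * δ - β * γ = 1 := by
    by_cases hα : α = 0
    · have hβ : β ≠ 0 := by
        rintro rfl
        apply hv0
        rw [hα, zero_smul, zero_smul, add_zero]
      exact ⟨-β⁻¹, 0, by rw [mul_zero, mul_neg, mul_inv_cancel₀ hβ]; ring⟩
    · exact ⟨0, α⁻¹, by rw [mul_zero, mul_inv_cancel₀ hα]; ring⟩
  have hx : Has Q H u₁ u₂ := C.has u₁ hu₁ u₂ hu₂ hsu₁ hu12
  have hvv' := has_line hx hsu₂ hdet
  set v := α • u₁ + β • u₂ with hv
  set v' := γ • u₁ + δ • u₂ with hv'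
  have hu₁v : u₁ = δ • v - β • v' := by
    have : u₁ = (α * δ - β * γ) • u₁ := by rw [hdet, one_smul]
    rw [this, hv, hv']
    module
  have hu₂v : u₂ = α • v' - γ • v := by
    have : u₂ = (α * δ - β * γ) • u₂ := by rw [hdet, one_smul]
    rw [this, hv, hv']
    module
  have hsv : Q v = 0 := hvv'.sing
  have hvv'0 : polar Q v v' = 0 := hvv'.perp
  have hsv' : Q v' = 0 := by
    apply sing_of_span_pair hsu₁ hu12 hsu₂
    exact Submodule.mem_span_pair.2 ⟨γ, δ, rfl⟩
  -- `a'`, `b''`
  set s := polar Q v' b' with hs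
  set t := - polar Q v' a with ht
  by_cases hst : s = 0 ∧ t = 0
  · -- `y` fixes `u₁`
    apply hynot
    have e1 : polar Q a u₁ = 0 := by
      rw [polar_comm, hu₁v, polar_sub_left, polar_smul_left, polar_smul_left, h1]
      have : polar Q v' a = 0 := by rw [← neg_eq_zero, ← ht]; exact hst.2
      rw [this]; simp
    have e2 : polar Q b' u₁ = 0 := by
      rw [polar_comm, hu₁v, polar_sub_left, polar_smul_left, polar_smul_left, h2, ← hs, hst.1]
      simp
    refine C.stab_point hn hyH hu₁ hj₁ hsu₁ (a := 1) ?_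
    rw [one_smul, hydef]
    exact siegel_fix _ _ e1 e2
  obtain ⟨s', t', hdet'⟩ : ∃ s' t' : F, s * t' - t * s' = 1 := by
    by_cases hs0 : s = 0
    · have ht0 : t ≠ 0 := fun h0 => hst ⟨hs0, h0⟩
      exact ⟨-t⁻¹, 0, by rw [mul_zero, mul_neg, mul_inv_cancel₀ ht0]; ring⟩
    · exact ⟨0, s⁻¹, by rw [mul_zero, mul_inv_cancel₀ hs0]; ring⟩
  have ha'b'' := has_line hy hsb hdet'
  set a' := s • a + t • b' with ha'
  set b'' := s' • a + t' • b' with hb''
  have ha'0 : a' ≠ 0 := fun h0 => hst (hind s t h0)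
  have hva' : polar Q v a' = 0 := by
    rw [ha', polar_add_right, polar_smul_right, polar_smul_right, h1, h2]; simp
  have hvb'' : polar Q v b'' = 0 := by
    rw [hb'', polar_add_right, polar_smul_right, polar_smul_right, h1, h2]; simp
  have hv'a' : polar Q v' a' = 0 := by
    rw [ha', polar_add_right, polar_smul_right, polar_smul_right, ← hs]
    have : polar Q v' a = -t := by rw [ht, neg_neg]
    rw [this, smul_eq_mul, smul_eq_mul]; ring
  have hv'b'' : polar Q v' b'' = 1 := by
    rw [hb'', polar_add_right, polar_smul_right, polar_smul_right, ← hs]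
    have : polar Q v' a = -t := by rw [ht, neg_neg]
    rw [this, smul_eq_mul, smul_eq_mul]
    linear_combination hdet'
  have hz := hvv'.comm ha'b'' hva' hv'a'
  rw [hvb'', hv'b'', mul_zero, add_zero, zero_smul, zero_sub, one_smul] at hz
  have hz' : Has Q H a' v := by
    have := hz.neg
    rwa [neg_neg] at this
  have hsa' : Q a' = 0 := hz'.sing
  have ha'v : polar Q a' v = 0 := hz'.perp
  have haa' : polar Q a a' = 0 := by
    rw [ha', polar_add_right, polar_smul_right, polar_smul_right, hab, polar_self_of_sing hsa]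
    simp
  have hb'a' : polar Q b' a' = 0 := by
    rw [ha', polar_add_right, polar_smul_right, polar_smul_right, polar_comm Q b' a, hab,
      polar_self_of_sing hsb]
    simp
  have hya' : y a' = a' := siegel_fix _ _ haa' hb'a'
  have hyv : y v = v := siegel_fix _ _ (by rw [polar_comm]; exact h1) (by rw [polar_comm]; exact h2)
  have hz2 : siegel Q a' v hsa' ha'v ∈ H := hz'.mem _ _
  have hzu₁ : siegel Q a' v hsa' ha'v u₁ = u₁ := by
    apply siegel_fix
    · rw [hu₁v, polar_sub_right, polar_smul_right, polar_smul_right, ha'v, polar_comm Q a' v',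
        hv'a']
      simp
    · rw [hu₁v, polar_sub_right, polar_smul_right, polar_smul_right, hvv'0,
        polar_self_of_sing hsv]
      simp
  have hzR : siegel Q a' v hsa' ha'v ∈ stR b F₀ :=
    C.stab_point hn hz2 hu₁ hj₁ hsu₁ (a := 1) (by rw [one_smul, hzu₁])
  apply hynot
  by_cases hdep : ∃ c : F, a' = c • v
  · -- the lines meet: `y` stabilises the line of `u₁, u₂`
    obtain ⟨c, hc⟩ := hdep
    have hyv' : y v' = v' - c • v := by
      rw [hydef, siegel_apply, hsb, polar_comm Q a v', polar_comm Q b' v', ← hs]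
      have e1 : polar Q v' a = -t := by rw [ht, neg_neg]
      rw [e1, ← hc, ha']
      module
    have hline : ∀ x ∈ Submodule.span F {u₁, u₂}, y x ∈ Submodule.span F {u₁, u₂} := by
      have hvm : v ∈ Submodule.span F {u₁, u₂} := Submodule.mem_span_pair.2 ⟨α, β, rfl⟩
      have hv'm : v' ∈ Submodule.span F {u₁, u₂} := Submodule.mem_span_pair.2 ⟨γ, δ, rfl⟩
      intro x hx
      obtain ⟨m, n, rfl⟩ := Submodule.mem_span_pair.1 hx
      have e1 : y u₁ = δ • v - β • (v' - c • v) := by
        conv_lhs => rw [hu₁v]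
        rw [map_sub, map_smul, map_smul, hyv, hyv']
      have e2 : y u₂ = α • (v' - c • v) - γ • v := by
        conv_lhs => rw [hu₂v]
        rw [map_sub, map_smul, map_smul, hyv, hyv']
      rw [map_add, map_smul, map_smul, e1, e2]
      have hm := Submodule.sub_mem _ hv'm (Submodule.smul_mem _ c hvm)
      exact Submodule.add_mem _
        (Submodule.smul_mem _ _ (Submodule.sub_mem _ (Submodule.smul_mem _ _ hvm)
          (Submodule.smul_mem _ _ hm)))
        (Submodule.smul_mem _ _ (Submodule.sub_mem _ (Submodule.smul_mem _ _ hm)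
          (Submodule.smul_mem _ _ hvm)))
    have : Module.Finite F V := Module.Finite.of_basis b
    have hst := Cfsg.Agent.H883.Bridge.mem_stab_of_le hline
    have hratD : RatSub b F₀ (Submodule.span F {u₁, u₂}) := by
      refine ratSub_span ?_
      rintro x (rfl | hx)
      · exact hu₁
      · rw [Set.mem_singleton_iff] at hx
        rw [hx]; exact hu₂
    refine C.line hn hyH hj₁ hsu₁ hu12 hsu₂ hratD ?_
    have e : (Submodule.span F {u₁, u₂}).comap (y : V →ₗ[F] V) = Submodule.span F {u₁, u₂} := by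
      ext x
      exact (hst x).symm
    rw [e]
    exact hratD
  · push Not at hdep
    have hdep' : ∀ c : F, v ≠ c • a' := by
      intro c hc
      have hc0 : c ≠ 0 := by
        rintro rfl
        apply hv0
        rw [hc, zero_smul]
      apply hdep c⁻¹
      rw [hc, smul_smul, inv_mul_cancel₀ hc0, one_smul]
    have hD := ratSub_of_siegel C.nondeg hsa' ha'v hsv hdep hdep'
      (fun x hx => map_rat_of_fix hzR hu₁ hj₁ hzu₁ hx)
    refine C.line hn hyH ha'0 hsa' ha'v hsv hD ?_
    have e := comap_span_pair y a' v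
    rw [hya', hyv] at e
    rw [e]
    exact hD

end Cfsg.Agent.H888.Rat
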