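import Cfsg.Agent.H888.Thin

/-!
A thin overgroup `H` of the normaliser of a rational structure: stabilisers in `H` of rational totally
singular subspaces normalise the rational structure.
-/

set_option autoImplicit false

namespace Cfsg.Agent.H888.Rat

open QuadraticMap hiding proj
open Cfsg.Agent.LieClassical.OrthCore Cfsg.Agent.LieClassical.OrthTrans
  Cfsg.Agent.LieClassical.OrthFinite Cfsg.Agent.H883.Root Cfsg.Agent.H883.Sub

variable {F V : Type*} [Field F] [AddCommGroup V] [Module F V] {ι : Type*}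
variable {b : Module.Basis ι F V} {F₀ : Subfield F} {Q : QuadraticForm F V}
variable {H : Subgroup (V ≃ₗ[F] V)}

/-- Automorphisms mapping the rational structure to a multiple of itself. -/
def stR (b : Module.Basis ι F V) (F₀ : Subfield F) : Subgroup (V ≃ₗ[F] V) where
  carrier := {g | ∃ c : F, c ≠ 0 ∧ ∀ v, v ∈ rat b F₀ ↔ c • g v ∈ rat b F₀}
  mul_mem' {g h} hg hh := by
    obtain ⟨c, hc, hg⟩ := hg
    obtain ⟨d, hd, hh⟩ := hh
    refine ⟨c * d, mul_ne_zero hc hd, fun v => ?_⟩
    rw [hh v, hg (d • h v)]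
    show _ ↔ (c * d) • g (h v) ∈ _
    rw [map_smul, smul_smul]
  one_mem' := ⟨1, one_ne_zero, fun v => by rw [one_smul]; rfl⟩
  inv_mem' {g} hg := by
    obtain ⟨c, hc, hg⟩ := hg
    refine ⟨c⁻¹, inv_ne_zero hc, fun v => ?_⟩
    have h1 : g (g⁻¹ v) = v := LinearEquiv.apply_symm_apply g v
    rw [hg (c⁻¹ • g⁻¹ v), map_smul, h1, smul_smul, mul_inv_cancel₀ hc, one_smul]

theorem mem_stR {g : V ≃ₗ[F] V} :
    g ∈ stR b F₀ ↔ ∃ c : F, c ≠ 0 ∧ ∀ v, v ∈ rat b F₀ ↔ c • g v ∈ rat b F₀ := Iff.rfl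

theorem mem_stR_of_forall [Fintype ι] [Finite F] {g : V ≃ₗ[F] V} {c : F} (hc : c ≠ 0)
    (h : ∀ v ∈ rat b F₀, c • g v ∈ rat b F₀) : g ∈ stR b F₀ := by
  refine ⟨c, hc, fun v => ⟨h v, fun hv => ?_⟩⟩
  have : Module.Finite F V := Module.Finite.of_basis b
  have : Finite V := Module.finite_of_finite F
  let f : rat b F₀ → rat b F₀ := fun x => ⟨c • g (x : V), h _ x.2⟩
  have hf : Function.Injective f := by
    intro x y hxy
    have h1 : c • g (x : V) = c • g (y : V) := congrArg Subtype.val hxy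
    exact Subtype.ext (g.injective (smul_right_injective V hc h1))
  obtain ⟨x, hx⟩ := Finite.surjective_of_injective hf ⟨c • g v, hv⟩
  have h1 : c • g (x : V) = c • g v := congrArg Subtype.val hx
  rw [← g.injective (smul_right_injective V hc h1)]
  exact x.2

/-- An element of `stR` fixing a nonzero rational vector preserves the rational structure. -/
theorem map_rat_of_fix {k : V ≃ₗ[F] V} (hk : k ∈ stR b F₀) {u : V} (hu : u ∈ rat b F₀)
    (hu0 : u ≠ 0) (hku : k u = u) {v : V} (hv : v ∈ rat b F₀) : k v ∈ rat b F₀ := by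
  obtain ⟨c, hc, h⟩ := hk
  have h1 := (h u).1 hu
  rw [hku] at h1
  have h2 := mem_of_smul_mem hu hu0 h1
  have h3 := rat_smul (F₀.inv_mem h2) ((h v).1 hv)
  rwa [smul_smul, inv_mul_cancel₀ hc, one_smul] at h3

theorem siegel_mem_stR [Fintype ι] [Finite F] (hR : IsRat Q b F₀) {u w : V} (hu : Q u = 0)
    (hw : polar Q u w = 0) (huR : u ∈ rat b F₀) (hwR : w ∈ rat b F₀) :
    siegel Q u w hu hw ∈ stR b F₀ :=
  mem_stR_of_forall one_ne_zero fun v hv => by
    rw [one_smul]
    exact siegel_rat hR hu hw huR hwR hv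

/-- The standing hypotheses on `H`. -/
structure Ctx (Q : QuadraticForm F V) (b : Module.Basis ι F V) (F₀ : Subfield F)
    (H : Subgroup (V ≃ₗ[F] V)) : Prop where
  nondeg : Nondeg Q
  isRat : IsRat Q b F₀
  le : stR b F₀ ⊓ E Q ≤ H
  leE : H ≤ E Q
  thin : Thin Q b F₀ H

theorem hasRat_of_le [Fintype ι] [Finite F] (hR : IsRat Q b F₀) (h : stR b F₀ ⊓ E Q ≤ H) :
    HasRat Q b F₀ H := fun _ hu _ hw hsu huw =>
  ⟨hsu, huw, h ⟨siegel_mem_stR hR hsu huw hu hw, siegel_mem_E _ _⟩⟩

variable [Fintype ι] [Finite F]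

theorem Ctx.has (C : Ctx Q b F₀ H) : HasRat Q b F₀ H := hasRat_of_le C.isRat C.le

omit [Fintype ι] [Finite F] in
theorem Ctx.isom {g : V ≃ₗ[F] V} (C : Ctx Q b F₀ H) (hg : g ∈ H) : g ∈ O Q := E_le_O (C.leE hg)

/-- **The stabiliser in `H` of a rational singular point normalises the rational structure.** -/
theorem Ctx.stab_point (C : Ctx Q b F₀ H) (hn : 7 ≤ Fintype.card ι) {g : V ≃ₗ[F] V} (hg : g ∈ H)
    {u : V} (hu : u ∈ rat b F₀) (hu0 : u ≠ 0) (hsu : Q u = 0) {a : F} (hgu : g u = a • u) :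
    g ∈ stR b F₀ := by
  have hgO := C.isom hg
  have ha : a ≠ 0 := by
    rintro rfl
    rw [zero_smul] at hgu
    exact hu0 (g.map_eq_zero_iff.1 hgu)
  obtain ⟨v, hv, huv⟩ := exists_partner_rat C.nondeg C.isRat hu hsu hu0
  have hv' : Hyp Q u (a • g v) := by
    refine ⟨hsu, ?_, ?_⟩
    · rw [QuadraticMap.map_smul, mem_O.1 hgO, huv.right, smul_zero]
    · rw [polar_smul_right, ← polar_smul_left, ← hgu, polar_map hgO, huv.pair]
  have hw : polar Q u (a • g v - v) = 0 := by
    rw [polar_sub_right, hv'.pair, huv.pair, sub_self]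
  set k := siegel Q u (a • g v - v) hsu hw with hk
  have hkE : k ∈ E Q := siegel_mem_E _ _
  have hkO : k ∈ O Q := siegel_mem_O _ _
  have hku : k u = u := by
    rw [hk, siegel_apply, huv.polar_left, polar_comm Q _ u, hw]
    simp
  have hkv : k v = a • g v := by
    have hQ' : Q (a • g v - v) = - polar Q (a • g v) v := by
      rw [sub_eq_add_neg, Q_add, QuadraticMap.map_neg, polar_neg_right, hv'.right, huv.right]
      ring
    rw [hk, siegel_apply, huv.pair, hQ', polar_sub_left, huv.polar_right]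
    module
  -- `g' = k⁻¹ g`
  set g' := k⁻¹ * g with hg'
  have hkg' : ∀ x, k (g' x) = g x := fun x => LinearEquiv.apply_symm_apply k (g x)
  have hg'E : g' ∈ E Q := (E Q).mul_mem ((E Q).inv_mem hkE) (C.leE hg)
  have hg'O : g' ∈ O Q := E_le_O hg'E
  have hg'u : g' u = a • u := by
    apply k.injective
    rw [hkg', map_smul, hku, hgu]
  have hg'v : a • g' v = v := by
    apply k.injective
    rw [map_smul, hkg', hkv]
  -- action on the complement
  have hx : ∀ x ∈ rat b F₀, polar Q u x = 0 → polar Q v x = 0 →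
      a • g' x ∈ rat b F₀ := by
    intro x hx hux hvx
    have h1 : Has Q H (g u) (g x) := (C.has u hu x hx hsu hux).map hgO hg
    rw [hgu] at h1
    have hugx : polar Q u (g x) = 0 := by
      have h2 := h1.perp
      rw [polar_smul_left, smul_eq_mul] at h2
      exact (mul_eq_zero.1 h2).resolve_left ha
    have h2 : Has Q H u (a • g x) := h1.smul_right hsu hugx
    obtain ⟨x₀, hx₀, c, hc⟩ := C.thin u hu hu0 _ h2
    -- apply `k⁻¹`
    have hux₀ : polar Q u x₀ = 0 := by
      have h3 : polar Q u (a • g x) = 0 := h2.perp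
      rw [hc, polar_add_right, polar_smul_right, huv.polar_left, smul_zero, add_zero] at h3
      exact h3
    have h4 : k (x₀ + (c + polar Q (a • g v - v) x₀) • u) = a • g x := by
      rw [map_add, map_smul, hku, hc, hk, siegel_apply, hux₀]
      simp only [zero_smul, mul_zero]
      module
    have h5 : a • g' x = x₀ + (c + polar Q (a • g v - v) x₀) • u := by
      apply k.injective
      rw [h4, map_smul, hkg']
    have h6 : polar Q v (a • g' x) = 0 := by
      have h7 : polar Q (g' v) (g' x) = 0 := by rw [polar_map hg'O, hvx]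
      rw [← hg'v, polar_smul_left, polar_smul_right, h7]
      simp
    rw [h5] at h6 ⊢
    rw [polar_add_right, polar_smul_right, huv.pair', smul_eq_mul, mul_one] at h6
    have h8 : c + polar Q (a • g v - v) x₀ = - polar Q v x₀ := by linear_combination h6
    rw [h8]
    exact (rat b F₀).add_mem hx₀ (rat_smul (F₀.neg_mem (C.isRat.polar hv hx₀)) hu)
  -- `a²` is rational
  have ha2 : a * a ∈ F₀ := by
    obtain ⟨e, he, f, hf, hef, h1, h2⟩ := exists_hyp_rat C.nondeg C.isRat ![u, v]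
      (by intro i; fin_cases i <;> assumption) (by omega)
    have hue : polar Q u e = 0 := h1 0
    have hve : polar Q v e = 0 := h1 1
    have huf : polar Q u f = 0 := h2 0
    have hvf : polar Q v f = 0 := h2 1
    have h3 := hx (e + f) ((rat b F₀).add_mem he hf)
      (by rw [polar_add_right, hue, huf, add_zero]) (by rw [polar_add_right, hve, hvf, add_zero])
    have h4 := C.isRat _ h3
    rw [QuadraticMap.map_smul, mem_O.1 hg'O, Q_add, hef.left, hef.right, hef.pair] at h4
    simpa using h4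
  have hg'R : g' ∈ stR b F₀ := by
    refine mem_stR_of_forall ha fun t ht => ?_
    have e : t = polar Q v t • u + polar Q u t • v + Cfsg.Agent.LieClassical.OrthTrans.proj Q u v t := by
      rw [Cfsg.Agent.LieClassical.OrthTrans.proj]; module
    have e2 : a • g' t = (polar Q v t * (a * a)) • u + polar Q u t • v +
        a • g' (Cfsg.Agent.LieClassical.OrthTrans.proj Q u v t) := by
      conv_lhs => rw [e]
      rw [map_add, map_add, map_smul, map_smul, hg'u, smul_add, smul_add, smul_comm a (polar Q u t),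
        hg'v, smul_smul, smul_smul]
      congr 3
      ring
    rw [e2]
    refine (rat b F₀).add_mem ((rat b F₀).add_mem
      (rat_smul (F₀.mul_mem (C.isRat.polar hv ht) ha2) hu) (rat_smul (C.isRat.polar hu ht) hv)) ?_
    exact hx _ (proj_rat C.isRat hu hv ht) (polar_proj_left huv t) (polar_proj_right huv t)
  have hg'H : g' ∈ H := C.le ⟨hg'R, hg'E⟩
  have hkH : k ∈ H := by
    have : k = g * g'⁻¹ := by rw [hg']; group
    rw [this]
    exact H.mul_mem hg (H.inv_mem hg'H)
  obtain ⟨w₀, hw₀, c, hc⟩ := C.thin u hu hu0 _ ⟨hsu, hw, hkH⟩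
  have hkR : k ∈ stR b F₀ := by
    have huw₀ : polar Q u w₀ = 0 := by
      have h3 := hw
      rw [hc, polar_add_right, polar_smul_right, huv.polar_left, smul_zero, add_zero] at h3
      exact h3
    have hcu : polar Q u (c • u) = 0 := by
      rw [polar_smul_right, huv.polar_left, smul_zero]
    have e : k = siegel Q u w₀ hsu huw₀ := by
      have h1 := siegel_mul hsu huw₀ hcu (by rw [← hc]; exact hw)
      rw [siegel_self, mul_one] at h1
      rw [h1, hk]
      congr 1
    rw [e]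
    exact siegel_mem_stR C.isRat hsu huw₀ hu hw₀
  have : g = k * g' := by rw [hg']; group
  rw [this]
  exact (stR b F₀).mul_mem hkR hg'R

/-- **If `h ∈ H` maps a rational singular point to a rational point then `h` normalises the rational
structure.** -/
theorem Ctx.rat_image (C : Ctx Q b F₀ H) (hn : 7 ≤ Fintype.card ι) {h : V ≃ₗ[F] V} (hh : h ∈ H)
    {u : V} (hu : u ∈ rat b F₀) (hu0 : u ≠ 0) (hsu : Q u = 0) {c : F} (hc : c ≠ 0)
    (hhu : c • h u ∈ rat b F₀) : h ∈ stR b F₀ := by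
  have hs : Q (c • h u) = 0 := by
    rw [QuadraticMap.map_smul, mem_O.1 (C.isom hh), hsu, smul_zero]
  have h0 : c • h u ≠ 0 := by
    rw [smul_ne_zero_iff]
    exact ⟨hc, fun h0 => hu0 (h.map_eq_zero_iff.1 h0)⟩
  obtain ⟨m, hm, hmu, hmR⟩ := trans_rat C.nondeg C.isRat (by omega) C.has hhu hu hs hsu h0 hu0
  have h1 : (m * h) u = c⁻¹ • u := by
    show m (h u) = _
    have h2 : c • m (h u) = u := by rw [← map_smul, hmu]
    rw [← h2, smul_smul, inv_mul_cancel₀ hc, one_smul, h2]
  have h2 := C.stab_point hn (H.mul_mem hm.1 hh) hu hu0 hsu h1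
  have h3 : m ∈ stR b F₀ := mem_stR_of_forall one_ne_zero fun v hv => by
    rw [one_smul]
    exact hmR v hv
  have : h = m⁻¹ * (m * h) := by group
  rw [this]
  exact (stR b F₀).mul_mem ((stR b F₀).inv_mem h3) h2

/-- `D` is spanned by its rational vectors. -/
def RatSub (b : Module.Basis ι F V) (F₀ : Subfield F) (D : Submodule F V) : Prop :=
  D ≤ Submodule.span F {v | v ∈ rat b F₀ ∧ v ∈ D}

omit [Fintype ι] [Finite F] in
theorem ratSub_span {S : Set V} (hS : ∀ s ∈ S, s ∈ rat b F₀) :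
    RatSub b F₀ (Submodule.span F S) :=
  Submodule.span_mono fun s hs => ⟨hS s hs, Submodule.subset_span hs⟩

omit [Fintype ι] [Finite F] in
theorem RatSub.exists_ne {D : Submodule F V} (hD : RatSub b F₀ D) (h0 : D ≠ ⊥) :
    ∃ v ∈ rat b F₀, v ∈ D ∧ v ≠ 0 := by
  by_contra hcon
  push Not at hcon
  apply h0
  rw [eq_bot_iff]
  refine hD.trans (Submodule.span_le.2 ?_)
  rintro v ⟨hv, hvD⟩
  exact (Submodule.mem_bot F).2 (hcon v hv hvD)

omit [Fintype ι] [Finite F] in
theorem RatSub.perp_of {D : Submodule F V} (hD : RatSub b F₀ D) {v : V}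
    (h : ∀ s ∈ {v | v ∈ rat b F₀ ∧ v ∈ D}, polar Q s v = 0) : v ∈ perp Q D := by
  rw [mem_perp]
  intro w hw
  have h1 : Submodule.span F {v | v ∈ rat b F₀ ∧ v ∈ D} ≤ LinearMap.ker ((polarBilin Q).flip v) := by
    rw [Submodule.span_le]
    intro s hs
    exact h s hs
  exact h1 (hD hw)

/-- A vector outside a rationally spanned subspace is separated from it by a rational vector. -/
theorem RatSub.exists_sep (hQ : Nondeg Q) (hR : IsRat Q b F₀) {D : Submodule F V}
    (hD : RatSub b F₀ D) {x : V} (hx : x ∉ D) :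
    ∃ w ∈ rat b F₀, w ∈ perp Q D ∧ polar Q x w ≠ 0 := by
  have : Module.Finite F V := Module.Finite.of_basis b
  rw [← perp_perp hQ D, mem_perp] at hx
  push Not at hx
  obtain ⟨v, hv, hvx⟩ := hx
  obtain ⟨w, hw, h1, h2⟩ := exists_rat_sep hR (S := {v | v ∈ rat b F₀ ∧ v ∈ D}) (fun s hs => hs.1)
    (x := x) (v := v) (fun s hs => mem_perp.1 hv s hs.2) (by rwa [polar_comm])
  exact ⟨w, hw, hD.perp_of h1, h2⟩

/-- **If `D` is totally singular, spanned by rational vectors and by images under `h ∈ H` of rational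
vectors, then `h` normalises the rational structure.** -/
theorem Ctx.stab_sub (C : Ctx Q b F₀ H) (hn : 7 ≤ Fintype.card ι) {h : V ≃ₗ[F] V} (hh : h ∈ H)
    {D : Submodule F V} (h0 : D ≠ ⊥) (hs : ∀ x ∈ D, Q x = 0) (hp : ¬ perp Q D ≤ D)
    (hD : RatSub b F₀ D) (hD' : RatSub b F₀ (D.comap (h : V →ₗ[F] V))) : h ∈ stR b F₀ := by
  have hhO := C.isom hh
  have hpol : ∀ x ∈ D, ∀ y ∈ D, polar Q x y = 0 := by
    intro x hx y hy
    rw [polar, hs _ (D.add_mem hx hy), hs x hx, hs y hy]
    ring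
  have : Module.Finite F V := Module.Finite.of_basis b
  obtain ⟨u, hu, huD, hu0⟩ := hD.exists_ne h0
  have h0' : D.comap (h : V →ₗ[F] V) ≠ ⊥ := by
    intro h1
    obtain ⟨d, hd, hd0⟩ := Submodule.exists_mem_ne_zero_of_ne_bot h0
    have h2 : h.symm d ∈ D.comap (h : V →ₗ[F] V) := by
      show h (h.symm d) ∈ D
      rw [LinearEquiv.apply_symm_apply]
      exact hd
    rw [h1, Submodule.mem_bot] at h2
    exact hd0 (h.symm.map_eq_zero_iff.1 h2)
  obtain ⟨a₁, ha₁, ha₁D, ha₁0⟩ := hD'.exists_ne h0'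
  have ha₁D' : h a₁ ∈ D := ha₁D
  -- a rational vector orthogonal to `h⁻¹ D` outside it
  obtain ⟨x, hxp, hxD⟩ := SetLike.not_le_iff_exists.1 hp
  have hx1 : h.symm x ∉ D.comap (h : V →ₗ[F] V) := by
    intro h1
    have h2 : h (h.symm x) ∈ D := h1
    rw [LinearEquiv.apply_symm_apply] at h2
    exact hxD h2
  have hx2 : h.symm x ∈ perp Q (D.comap (h : V →ₗ[F] V)) := by
    rw [mem_perp]
    intro w hw
    have hw' : h w ∈ D := hw
    rw [← polar_map hhO, LinearEquiv.apply_symm_apply]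
    exact mem_perp.1 hxp _ hw'
  obtain ⟨b₁, hb₁, hb₁p, hb₁x⟩ := hD'.exists_sep C.nondeg C.isRat hx1
  have hb₁D : h b₁ ∉ D := by
    intro h1
    apply hb₁x
    exact mem_perp'.1 hx2 b₁ h1
  have hab₁ : polar Q a₁ b₁ = 0 := mem_perp.1 hb₁p _ ha₁D
  have hsa₁ : Q a₁ = 0 := by
    rw [← mem_O.1 hhO]
    exact hs _ ha₁D'
  have hk := (C.has a₁ ha₁ b₁ hb₁ hsa₁ hab₁).map hhO hh
  have hbD : ∀ d ∈ D, polar Q (h b₁) d = 0 := by
    intro d hd
    have h1 : h (h.symm d) = d := LinearEquiv.apply_symm_apply h d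
    rw [← h1, polar_map hhO, polar_comm]
    refine mem_perp.1 hb₁p _ ?_
    show h (h.symm d) ∈ D
    rw [h1]
    exact hd
  set k := siegel Q (h a₁) (h b₁) hk.sing hk.perp with hkdef
  have hkH : k ∈ H := hk.mem _ _
  have hku : k u = u := siegel_fix _ _ (hpol _ ha₁D' _ huD) (hbD _ huD)
  have hkR : k ∈ stR b F₀ := C.stab_point hn hkH hu hu0 (hs u huD) (a := 1)
    (by rw [one_smul, hku])
  obtain ⟨v, hv, hvp, hbv⟩ := hD.exists_sep C.nondeg C.isRat hb₁D
  have hkv := map_rat_of_fix hkR hu hu0 hku hv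
  have hav : polar Q (h a₁) v = 0 := mem_perp.1 hvp _ ha₁D'
  rw [hkdef, siegel_apply, hav] at hkv
  have h1 : polar Q (h b₁) v • h a₁ ∈ rat b F₀ := by
    have h2 := (rat b F₀).sub_mem hv hkv
    have e : v - (v + (0 : F) • h b₁ - polar Q (h b₁) v • h a₁ - (Q (h b₁) * 0) • h a₁) =
        polar Q (h b₁) v • h a₁ := by
      rw [mul_zero]; module
    rwa [e] at h2
  exact C.rat_image hn hh ha₁ ha₁0 hsa₁ hbv h1

end Cfsg.Agent.H888.Rat
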