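import Cfsg.Agent.H888.RatForm
import Cfsg.Agent.H888.FieldDich

/-!
First dichotomy for a group `H` containing the rational Siegel transformations: either every Siegel
transformation of `H` at a rational singular vector is rational, or `E Q ≤ H`.
-/

set_option autoImplicit false

namespace Cfsg.Agent.H888.Rat

open QuadraticMap hiding proj
open Cfsg.Agent.LieClassical.OrthCore Cfsg.Agent.LieClassical.OrthTrans
  Cfsg.Agent.LieClassical.OrthFinite Cfsg.Agent.H883.Root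

variable {F V : Type*} [Field F] [AddCommGroup V] [Module F V] {ι : Type*} [Fintype ι]
variable {b : Module.Basis ι F V} {F₀ : Subfield F} {Q : QuadraticForm F V}
variable {H : Subgroup (V ≃ₗ[F] V)}

omit [Fintype ι] in
theorem proj_rat (hR : IsRat Q b F₀) {u v t : V} (hu : u ∈ rat b F₀) (hv : v ∈ rat b F₀)
    (ht : t ∈ rat b F₀) : proj Q u v t ∈ rat b F₀ :=
  (rat b F₀).sub_mem ((rat b F₀).sub_mem ht (rat_smul (hR.polar hv ht) hu))
    (rat_smul (hR.polar hu ht) hv)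

/-- Rational vectors orthogonal to a rational hyperbolic pair are sums of singular ones. -/
theorem rat_sing_induction [Finite F] (hQ : Nondeg Q) (hR : IsRat Q b F₀)
    (hn : 7 ≤ Fintype.card ι) {u v : V} (hu : u ∈ rat b F₀) (hv : v ∈ rat b F₀)
    {P : V → Prop} (hadd : ∀ a c, P a → P c → P (a + c))
    (hsing : ∀ a ∈ rat b F₀, Q a = 0 → polar Q u a = 0 → polar Q v a = 0 → P a) {x : V}
    (hx : x ∈ rat b F₀) (hux : polar Q u x = 0) (hvx : polar Q v x = 0) : P x := by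
  obtain ⟨e, he, f, hf, hef, h1, h2⟩ := exists_hyp_rat hQ hR ![u, v]
    (by intro i; fin_cases i <;> assumption) (by omega)
  have key := sing_induction_perp (Q := qf0 Q b F₀ hR) (x := ⟨e, he⟩) (y := ⟨f, hf⟩)
    (z := ⟨u, hu⟩) (w := ⟨v, hv⟩) (hyp_qf0.2 hef) (Subtype.ext (h1 0)) (Subtype.ext (h2 0))
    (Subtype.ext (h1 1)) (Subtype.ext (h2 1)) (P := fun t => P (t : V))
    (fun a c _ _ _ _ ha hc => hadd _ _ ha hc)
    (fun a ha h3 h4 => hsing _ a.2 (congrArg Subtype.val ha) (congrArg Subtype.val h3)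
      (congrArg Subtype.val h4)) ⟨x, hx⟩ (Subtype.ext hux) (Subtype.ext hvx)
  exact key

/-- Every Siegel transformation of `H` at a rational vector is rational modulo that vector. -/
def Thin (Q : QuadraticForm F V) (b : Module.Basis ι F V) (F₀ : Subfield F)
    (H : Subgroup (V ≃ₗ[F] V)) : Prop :=
  ∀ u ∈ rat b F₀, u ≠ 0 → ∀ w, Has Q H u w → ∃ w₀ ∈ rat b F₀, ∃ c : F, w = w₀ + c • u

/-- Step 1: a bad Siegel transformation pairs irrationally with some rational singular vector. -/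
theorem exists_irrational [Finite F] (hQ : Nondeg Q) (hR : IsRat Q b F₀)
    (hn : 7 ≤ Fintype.card ι) {u w : V} (hu : u ∈ rat b F₀) (hu0 : u ≠ 0) (hsu : Q u = 0)
    (huw : polar Q u w = 0) (hbad : ¬ ∃ w₀ ∈ rat b F₀, ∃ c : F, w = w₀ + c • u) :
    ∃ e ∈ rat b F₀, Q e = 0 ∧ polar Q u e = 0 ∧ polar Q e w ∉ F₀ := by
  by_contra hcon
  push Not at hcon
  obtain ⟨v, hv, huv⟩ := exists_partner_rat hQ hR hu hsu hu0
  apply hbad
  refine ⟨w - polar Q v w • u, ?_, polar Q v w, by module⟩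
  apply mem_rat_of_polar hQ hR
  intro t ht
  have hux : polar Q u (proj Q u v t) = 0 := polar_proj_left huv t
  have hvx : polar Q v (proj Q u v t) = 0 := polar_proj_right huv t
  have h1 : polar Q (proj Q u v t) w ∈ F₀ := by
    refine rat_sing_induction hQ hR hn hu hv (P := fun x => polar Q x w ∈ F₀) ?_ ?_
      (proj_rat hR hu hv ht) hux hvx
    · intro a c ha hc
      show polar Q (a + c) w ∈ F₀
      rw [polar_add_left]
      exact F₀.add_mem ha hc
    · intro a ha hsa hua _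
      exact hcon a ha hsa hua
  have h2 : polar Q t (w - polar Q v w • u) = polar Q (proj Q u v t) w := by
    rw [polar_sub_right, polar_smul_right, proj, polar_sub_left, polar_sub_left, polar_smul_left,
      polar_smul_left, huw, polar_comm Q t u]
    simp only [smul_eq_mul]
    ring
  rw [h2]
  exact h1

omit [Fintype ι] in
/-- A partner of a rational singular vector orthogonal to a rational hyperbolic pair. -/
theorem exists_partner_rat_perp (hQ : Nondeg Q) (hR : IsRat Q b F₀) {u v x : V}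
    (hu : u ∈ rat b F₀) (hv : v ∈ rat b F₀) (huv : Hyp Q u v) (hx : x ∈ rat b F₀)
    (hsx : Q x = 0) (h0 : x ≠ 0) (hux : polar Q u x = 0) (hvx : polar Q v x = 0) :
    ∃ y ∈ rat b F₀, Hyp Q x y ∧ polar Q u y = 0 ∧ polar Q v y = 0 := by
  have h1 : qf0 Q b F₀ hR ⟨x, hx⟩ = 0 := Subtype.ext hsx
  have h2 : Hyp (qf0 Q b F₀ hR) ⟨u, hu⟩ ⟨v, hv⟩ := hyp_qf0.2 huv
  obtain ⟨y, hy, hy1, hy2⟩ := exists_hyp_perp (nondeg_qf0 hQ hR) h2 h1
    (fun h => h0 (congrArg Subtype.val h)) (Subtype.ext hux) (Subtype.ext hvx)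
  exact ⟨y, y.2, hyp_qf0.1 hy, congrArg Subtype.val hy1, congrArg Subtype.val hy2⟩

/-- A third rational hyperbolic pair, dimension at least seven. -/
theorem exists_hyp_rat_perp2 [Finite F] (hQ : Nondeg Q) (hR : IsRat Q b F₀)
    (hn : 7 ≤ Fintype.card ι) {u v e f : V}
    (hu : u ∈ rat b F₀) (hv : v ∈ rat b F₀) (huv : Hyp Q u v)
    (he : e ∈ rat b F₀) (hf : f ∈ rat b F₀) (hef : Hyp Q e f) (hue : polar Q u e = 0)
    (huf : polar Q u f = 0) (hve : polar Q v e = 0) (hvf : polar Q v f = 0) :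
    ∃ x ∈ rat b F₀, ∃ y ∈ rat b F₀, Hyp Q x y ∧ (polar Q u x = 0 ∧ polar Q v x = 0 ∧
      polar Q e x = 0 ∧ polar Q f x = 0) ∧ (polar Q u y = 0 ∧ polar Q v y = 0 ∧
      polar Q e y = 0 ∧ polar Q f y = 0) := by
  set Q₀ := qf0 Q b F₀ hR with hQ₀
  obtain ⟨x, hx0, hx, hxp⟩ := exists_sing_perp (Q := Q₀)
    ![(⟨u, hu⟩ : rat b F₀), ⟨v, hv⟩, ⟨e, he⟩, ⟨f, hf⟩] (by rw [finrank_rat]; omega)
  have h1 : polar Q₀ (⟨u, hu⟩ : rat b F₀) x = 0 := hxp 0
  have h2 : polar Q₀ (⟨v, hv⟩ : rat b F₀) x = 0 := hxp 1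
  have h3 : polar Q₀ (⟨e, he⟩ : rat b F₀) x = 0 := hxp 2
  have h4 : polar Q₀ (⟨f, hf⟩ : rat b F₀) x = 0 := hxp 3
  have huv' : Hyp Q₀ ⟨u, hu⟩ ⟨v, hv⟩ := hyp_qf0.2 huv
  have hef' : Hyp Q₀ ⟨e, he⟩ ⟨f, hf⟩ := hyp_qf0.2 hef
  obtain ⟨c, hc⟩ := (nondeg_qf0 hQ hR).exists_polar_eq hx0 1
  set y := Cfsg.Agent.LieClassical.OrthTrans.proj Q₀ ⟨u, hu⟩ ⟨v, hv⟩
    (Cfsg.Agent.LieClassical.OrthTrans.proj Q₀ ⟨e, he⟩ ⟨f, hf⟩ c) with hy
  have a1 : polar Q₀ (⟨u, hu⟩ : rat b F₀) y = 0 := polar_proj_left huv' _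
  have a2 : polar Q₀ (⟨v, hv⟩ : rat b F₀) y = 0 := polar_proj_right huv' _
  have p1 : polar Q₀ (⟨u, hu⟩ : rat b F₀) ⟨e, he⟩ = 0 := Subtype.ext hue
  have p2 : polar Q₀ (⟨v, hv⟩ : rat b F₀) ⟨e, he⟩ = 0 := Subtype.ext hve
  have p3 : polar Q₀ (⟨u, hu⟩ : rat b F₀) ⟨f, hf⟩ = 0 := Subtype.ext huf
  have p4 : polar Q₀ (⟨v, hv⟩ : rat b F₀) ⟨f, hf⟩ = 0 := Subtype.ext hvf
  have a3 : polar Q₀ (⟨e, he⟩ : rat b F₀) y = 0 := by
    rw [hy, polar_proj_of_perp p1 p2, polar_proj_left hef']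
  have a4 : polar Q₀ (⟨f, hf⟩ : rat b F₀) y = 0 := by
    rw [hy, polar_proj_of_perp p3 p4, polar_proj_right hef']
  have a5 : polar Q₀ x y = 1 := by
    rw [hy, polar_proj_of_perp h1 h2, polar_proj_of_perp h3 h4]
    exact hc
  set z := y + (-Q₀ y) • x with hz
  have hxz : Hyp Q₀ x z := by
    refine ⟨hx, ?_, ?_⟩
    · rw [hz, Q_add, QuadraticMap.map_smul, hx, polar_smul_right, polar_comm Q₀ y x, a5]
      simp
    · rw [hz, polar_add_right, polar_smul_right, polar_self_of_sing hx, a5]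
      simp
  have hb : ∀ {t : rat b F₀}, polar Q₀ t x = 0 → polar Q₀ t y = 0 → polar Q₀ t z = 0 := by
    intro t h5 h6
    rw [hz, polar_add_right, polar_smul_right, h5, h6]
    simp
  exact ⟨x, x.2, z, z.2, hyp_qf0.1 hxz, ⟨congrArg Subtype.val h1, congrArg Subtype.val h2,
    congrArg Subtype.val h3, congrArg Subtype.val h4⟩, ⟨congrArg Subtype.val (hb h1 a1),
    congrArg Subtype.val (hb h2 a2), congrArg Subtype.val (hb h3 a3),
    congrArg Subtype.val (hb h4 a4)⟩⟩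

/-- Step 2: `H` contains `siegel u (c e)` with `c ∉ F₀` and `e` rational. -/
theorem exists_irrational_root [Finite F] (hQ : Nondeg Q) (hR : IsRat Q b F₀)
    (hn : 7 ≤ Fintype.card ι) (hH : HasRat Q b F₀ H) {u w : V} (hu : u ∈ rat b F₀)
    (hu0 : u ≠ 0) (hw : Has Q H u w)
    (hbad : ¬ ∃ w₀ ∈ rat b F₀, ∃ c : F, w = w₀ + c • u) :
    ∃ c : F, c ∉ F₀ ∧ ∃ v ∈ rat b F₀, ∃ e ∈ rat b F₀, Hyp Q u v ∧ e ≠ 0 ∧
      polar Q u e = 0 ∧ polar Q v e = 0 ∧ Q e = 0 ∧ Has Q H u (c • e) := by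
  obtain ⟨e₀, he₀, hs₀, hue₀, hc₀⟩ :=
    exists_irrational hQ hR (by omega) hu hu0 hw.sing hw.perp hbad
  obtain ⟨v, hv, huv⟩ := exists_partner_rat hQ hR hu hw.sing hu0
  set e₁ := e₀ - polar Q v e₀ • u with he₁def
  have he₁ : e₁ ∈ rat b F₀ := (rat b F₀).sub_mem he₀ (rat_smul (hR.polar hv he₀) hu)
  have hs₁ : Q e₁ = 0 := by
    rw [he₁def, sub_eq_add_neg, ← neg_smul, Q_add, QuadraticMap.map_smul, hs₀, huv.left,
      polar_smul_right, polar_comm Q e₀ u, hue₀]
    simp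
  have hue₁ : polar Q u e₁ = 0 := by
    rw [he₁def, polar_sub_right, polar_smul_right, hue₀, huv.polar_left]
    simp
  have hve₁ : polar Q v e₁ = 0 := by
    rw [he₁def, polar_sub_right, polar_smul_right, huv.pair']
    simp
  have hw₁ : polar Q e₁ w = polar Q e₀ w := by
    rw [he₁def, polar_sub_left, polar_smul_left, hw.perp]
    simp
  rw [← hw₁] at hc₀
  have he₁0 : e₁ ≠ 0 := by
    intro h
    rw [h, polar_zero_left] at hc₀
    exact hc₀ F₀.zero_mem
  obtain ⟨f₁, hf₁, h₁, huf₁, hvf₁⟩ := exists_partner_rat_perp hQ hR hu hv huv he₁ hs₁ he₁0 hue₁ hve₁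
  obtain ⟨e₂, he₂, f₂, hf₂, h₂, ⟨hue₂, -, h12, -⟩, ⟨huf₂, -, h1f2, -⟩⟩ :=
    exists_hyp_rat_perp2 hQ hR hn hu hv huv he₁ hf₁ h₁ hue₁ huf₁ hve₁ hvf₁
  refine ⟨polar Q e₁ w, hc₀, v, hv, e₁, he₁, huv, he₁0, hue₁, hve₁, hs₁, ?_⟩
  have hA : Has Q H e₁ e₂ := hH _ he₁ _ he₂ hs₁ h12
  have hB := hA.comm hw (by rw [polar_comm]; exact hue₁) (by rw [polar_comm]; exact hue₂)
  rw [h₂.left, zero_mul, add_zero] at hB
  have hC : Has Q H f₂ e₁ := hH _ hf₂ _ he₁ h₂.right (by rw [polar_comm]; exact h1f2)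
  have hD := hC.comm hB (by rw [polar_comm]; exact huf₂) (by rw [polar_comm]; exact hue₁)
  have e1 : polar Q f₂ (polar Q e₁ w • e₂ - polar Q e₂ w • e₁) = polar Q e₁ w := by
    rw [polar_sub_right, polar_smul_right, polar_smul_right, h₂.pair', polar_comm Q f₂ e₁, h1f2]
    simp
  have e2 : polar Q e₁ (polar Q e₁ w • e₂ - polar Q e₂ w • e₁) = 0 := by
    rw [polar_sub_right, polar_smul_right, polar_smul_right, h12, polar_self_of_sing hs₁]
    simp
  rw [e1, e2, hs₁, zero_mul, add_zero, zero_smul, sub_zero] at hD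
  exact hD

/-- The multipliers of rational roots contained in `H`. -/
def mult (Q : QuadraticForm F V) (b : Module.Basis ι F V) (F₀ : Subfield F)
    (H : Subgroup (V ≃ₗ[F] V)) : Set F :=
  {c | ∀ x ∈ rat b F₀, ∀ y ∈ rat b F₀, Q x = 0 → Q y = 0 → polar Q x y = 0 → Has Q H x (c • y)}

/-- Transitivity on rational singular vectors orthogonal to a rational hyperbolic pair, fixing the pair. -/
theorem trans_rat_perp [Finite F] (hQ : Nondeg Q) (hR : IsRat Q b F₀)
    (hn : 7 ≤ Fintype.card ι) (hH : HasRat Q b F₀ H) {u v x y : V} (hu : u ∈ rat b F₀)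
    (hv : v ∈ rat b F₀) (huv : Hyp Q u v) (hx : x ∈ rat b F₀) (hy : y ∈ rat b F₀)
    (hsx : Q x = 0) (hsy : Q y = 0) (hx0 : x ≠ 0) (hy0 : y ≠ 0) (hux : polar Q u x = 0)
    (hvx : polar Q v x = 0) (huy : polar Q u y = 0) (hvy : polar Q v y = 0) :
    ∃ g ∈ H ⊓ E Q, g u = u ∧ g x = y := by
  set Q₀ := qf0 Q b F₀ hR with hQ₀
  have hfin : Module.finrank F₀ (rat b F₀) = Fintype.card ι := finrank_rat
  have : Module.Finite F₀ (rat b F₀) := Module.finite_of_finrank_pos (by omega)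
  set W : Submodule F₀ (rat b F₀) := Submodule.span F₀ {(⟨u, hu⟩ : rat b F₀), ⟨v, hv⟩} with hW
  have huv' : Hyp Q₀ ⟨u, hu⟩ ⟨v, hv⟩ := hyp_qf0.2 huv
  have hnd : Cfsg.Agent.H883.Sub.NondegOn Q₀ W := by
    intro z hz hz'
    obtain ⟨s, t, rfl⟩ := Submodule.mem_span_pair.1 hz
    have h1 := hz' ⟨v, hv⟩ (Submodule.subset_span (by simp))
    have h2 := hz' ⟨u, hu⟩ (Submodule.subset_span (by simp))
    rw [polar_add_left, polar_smul_left, polar_smul_left, huv'.pair, huv'.polar_right] at h1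
    rw [polar_add_left, polar_smul_left, polar_smul_left, huv'.pair', huv'.polar_left] at h2
    simp only [smul_eq_mul, mul_one, mul_zero, add_zero, zero_add] at h1 h2
    rw [h1, h2, zero_smul, zero_smul, add_zero]
  have hWr : Module.finrank F₀ W ≤ 2 := by
    classical
    have h := finrank_span_finset_le_card (R := F₀)
      ({(⟨u, hu⟩ : rat b F₀), ⟨v, hv⟩} : Finset (rat b F₀))
    rw [Finset.coe_pair] at h
    exact h.trans Finset.card_le_two
  have hperp := Cfsg.Agent.H883.Sub.finrank_perp (nondeg_qf0 hQ hR) W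
  have hG := Cfsg.Agent.H883.Sub.good_res (hnd.perp (nondeg_qf0 hQ hR)) (by omega)
  have hmem : ∀ {z : V} (hz : z ∈ rat b F₀), polar Q u z = 0 → polar Q v z = 0 →
      (⟨z, hz⟩ : rat b F₀) ∈ Cfsg.Agent.H883.Sub.perp Q₀ W := by
    intro z hz h1 h2
    rw [Cfsg.Agent.H883.Sub.mem_perp]
    intro w hw
    obtain ⟨s, t, rfl⟩ := Submodule.mem_span_pair.1 hw
    have h1' : polar Q₀ (⟨u, hu⟩ : rat b F₀) ⟨z, hz⟩ = 0 := Subtype.ext h1
    have h2' : polar Q₀ (⟨v, hv⟩ : rat b F₀) ⟨z, hz⟩ = 0 := Subtype.ext h2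
    rw [polar_add_left, polar_smul_left, polar_smul_left, h1', h2']
    simp
  obtain ⟨g, hg, hgx⟩ := Cfsg.Agent.H883.Sub.EY_trans_sing hG (hmem hx hux hvx) (hmem hy huy hvy)
    (Subtype.ext hsx : Q₀ ⟨x, hx⟩ = 0) (Subtype.ext hsy : Q₀ ⟨y, hy⟩ = 0)
    (fun h => hx0 (congrArg Subtype.val h)) (fun h => hy0 (congrArg Subtype.val h))
  obtain ⟨g', hg', e'⟩ := exists_lift_rat hR hH (Cfsg.Agent.H883.Sub.EY_le_E hg)
  refine ⟨g', hg', ?_, ?_⟩
  · rw [e' ⟨u, hu⟩, Cfsg.Agent.H883.Sub.EY_fix hg]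
    intro w hw
    rw [polar_comm]
    exact Cfsg.Agent.H883.Sub.mem_perp.1 hw ⟨u, hu⟩ (Submodule.subset_span (by simp))
  · rw [e' ⟨x, hx⟩, hgx]

/-- Step 3: transfer of a multiplier from one root to all roots. -/
theorem mem_mult [Finite F] (hQ : Nondeg Q) (hR : IsRat Q b F₀)
    (hn : 7 ≤ Fintype.card ι) (hH : HasRat Q b F₀ H) {u v e : V} {c : F}
    (hu : u ∈ rat b F₀) (hv : v ∈ rat b F₀) (he : e ∈ rat b F₀) (huv : Hyp Q u v)
    (he0 : e ≠ 0) (hue : polar Q u e = 0) (hve : polar Q v e = 0) (hse : Q e = 0)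
    (h : Has Q H u (c • e)) : c ∈ mult Q b F₀ H := by
  have hu0 : u ≠ 0 := huv.left_ne
  have hall : ∀ y ∈ rat b F₀, Q y = 0 → polar Q u y = 0 → Has Q H u (c • y) := by
    intro y hy hsy huy
    set y' := y - polar Q v y • u with hy'
    have hy'R : y' ∈ rat b F₀ := (rat b F₀).sub_mem hy (rat_smul (hR.polar hv hy) hu)
    have hsy' : Q y' = 0 := by
      rw [hy', sub_eq_add_neg, ← neg_smul, Q_add, QuadraticMap.map_smul, hsy, huv.left,
        polar_smul_right, polar_comm Q y u, huy]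
      simp
    have huy' : polar Q u y' = 0 := by
      rw [hy', polar_sub_right, polar_smul_right, huy, huv.polar_left]
      simp
    have hvy' : polar Q v y' = 0 := by
      rw [hy', polar_sub_right, polar_smul_right, huv.pair']
      simp
    have hyy' : c • y = c • y' + (c * polar Q v y) • u := by
      rw [hy']; module
    rw [hyy']
    refine Has.add_smul_self ?_ _
    by_cases h0 : y' = 0
    · rw [h0, smul_zero]
      exact has_zero h.sing
    obtain ⟨g, hg, hgu, hge⟩ := trans_rat_perp hQ hR hn hH hu hv huv he hy'R hse hsy' he0 h0 hue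
      hve huy' hvy'
    have h1 := h.map (E_le_O hg.2) hg.1
    rwa [hgu, map_smul, hge] at h1
  intro x hx y hy hsx hsy hxy
  by_cases hx0 : x = 0
  · subst hx0
    exact has_zero_left _
  obtain ⟨g, hg, hgx, hgR⟩ := trans_rat hQ hR (by omega) hH hx hu hsx h.sing hx0 hu0
  have hgO : g ∈ O Q := E_le_O hg.2
  have h1 := hall (g y) (hgR y hy) (by rw [mem_O.1 hgO, hsy])
    (by rw [← hgx, polar_map hgO, hxy])
  have h2 := h1.map ((O Q).inv_mem hgO) (H.inv_mem hg.1)
  have e1 : g⁻¹ u = x := by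
    rw [← hgx]
    exact LinearEquiv.symm_apply_apply g x
  have e2 : g⁻¹ (c • g y) = c • y := by
    rw [← map_smul]
    exact LinearEquiv.symm_apply_apply g _
  rwa [e1, e2] at h2

theorem full_of_mult [Finite F] (hQ : Nondeg Q) (hR : IsRat Q b F₀)
    (hn : 7 ≤ Fintype.card ι) (hall : ∀ c : F, c ∈ mult Q b F₀ H) {u v : V}
    (hu : u ∈ rat b F₀) (hv : v ∈ rat b F₀) (huv : Hyp Q u v) : Full Q H u := by
  refine ⟨huv.left, fun w hw => ?_⟩
  have h1 : ∀ t ∈ rat b F₀, ∀ c : F, Has Q H u (c • proj Q u v t) := by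
    intro t ht
    refine rat_sing_induction hQ hR hn hu hv (P := fun x => ∀ c : F, Has Q H u (c • x)) ?_ ?_
      (proj_rat hR hu hv ht) (polar_proj_left huv t) (polar_proj_right huv t)
    · intro a d ha hd c
      show Has Q H u (c • (a + d))
      rw [smul_add]
      exact (ha c).add (hd c)
    · intro a ha hsa hua _ c
      exact hall c u hu a ha huv.left hsa hua
  have h2 : proj Q u v w = ∑ i, b.repr w i • proj Q u v (b i) := by
    have e : ∀ t, proj Q u v t =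
        (LinearMap.id - (polarBilin Q v).smulRight u - (polarBilin Q u).smulRight v :
          V →ₗ[F] V) t := by
      intro t
      simp [proj]
    rw [e w]
    conv_lhs => rw [← b.sum_repr w]
    rw [map_sum]
    refine Finset.sum_congr rfl fun i _ => ?_
    rw [map_smul, ← e]
  have h3 : Has Q H u (proj Q u v w) := by
    rw [h2]
    refine Finset.sum_induction _ (fun x => Has Q H u x) (fun x y hx hy => hx.add hy)
      (has_zero huv.left) fun i _ => h1 _ (basis_mem i) _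
  have e : w = proj Q u v w + polar Q v w • u := by
    rw [proj, hw]; module
  rw [e]
  exact h3.add_smul_self _

/-- **First dichotomy.** -/
theorem thin_or_E_le [Finite F] (hQ : Nondeg Q) (hR : IsRat Q b F₀)
    (hn : 7 ≤ Fintype.card ι) {r : ℕ} (hr : r.Prime) (hcard : Nat.card F = Nat.card F₀ ^ r)
    (hH : HasRat Q b F₀ H) : Thin Q b F₀ H ∨ E Q ≤ H := by
  by_contra hcon
  push Not at hcon
  obtain ⟨hthin, hE⟩ := hcon
  unfold Thin at hthin
  push Not at hthin
  obtain ⟨u, hu, hu0, w, hw, hbad⟩ := hthin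
  obtain ⟨c, hc, v₀, hv₀, e, he, huv₀, he0, hue, hve, hse, hce⟩ :=
    exists_irrational_root hQ hR hn hH hu hu0 hw (by push Not; exact hbad)
  have hmem : c ∈ mult Q b F₀ H := mem_mult hQ hR hn hH hu hv₀ he huv₀ he0 hue hve hse hce
  have key := Cfsg.Agent.H888.FieldDich.dichotomy F₀ hr hcard (mult Q b F₀ H)
    (fun d hd x hx y hy hsx _ hxy => hH x hx (d • y) (rat_smul hd hy) hsx
      (by rw [polar_smul_right, hxy, smul_zero]))
    (fun d hd d' hd' x hx y hy hsx hsy hxy => by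
      rw [add_smul]
      exact (hd x hx y hy hsx hsy hxy).add (hd' x hx y hy hsx hsy hxy))
    (fun d hd d' hd' x hx y hy hsx hsy hxy => by
      by_cases hx0 : x = 0
      · subst hx0
        exact has_zero_left _
      obtain ⟨x', hx', hxx'⟩ := exists_partner_rat hQ hR hx hsx hx0
      set y' := y - polar Q x' y • x with hy'
      have hy'R : y' ∈ rat b F₀ := (rat b F₀).sub_mem hy (rat_smul (hR.polar hx' hy) hx)
      have hsy' : Q y' = 0 := by
        rw [hy', sub_eq_add_neg, ← neg_smul, Q_add, QuadraticMap.map_smul, hsy, hxx'.left,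
          polar_smul_right, polar_comm Q y x, hxy]
        simp
      have hxy' : polar Q x y' = 0 := by
        rw [hy', polar_sub_right, polar_smul_right, hxy, hxx'.polar_left]
        simp
      have hx'y' : polar Q x' y' = 0 := by
        rw [hy', polar_sub_right, polar_smul_right, hxx'.pair']
        simp
      have hyy' : (d * d') • y = (d * d') • y' + ((d * d') * polar Q x' y) • x := by
        rw [hy']; module
      rw [hyy']
      refine Has.add_smul_self ?_ _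
      by_cases h0 : y' = 0
      · rw [h0, smul_zero]
        exact has_zero hsx
      obtain ⟨z, hz, hy'z, hxz, hx'z⟩ :=
        exists_partner_rat_perp hQ hR hx hx' hxx' hy'R hsy' h0 hxy' hx'y'
      obtain ⟨a, ha, a', ha', haa', ⟨h1x, -, h1y, -⟩, ⟨h2x, -, h2y, -⟩⟩ :=
        exists_hyp_rat_perp2 hQ hR hn hx hx' hxx' hy'R hz hy'z hxy' hxz hx'y' hx'z
      have h3 := hd a ha y' hy'R haa'.left hsy' (by rw [polar_comm]; exact h1y)
      have h4 := hd' x hx a' ha' hsx haa'.right h2x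
      have h5 := h3.comm' h4 (by rw [polar_comm]; exact h1x)
        (by rw [polar_smul_left, polar_comm, hxy', smul_zero])
        (by rw [QuadraticMap.map_smul, hsy', smul_zero])
        (by rw [polar_smul_left, polar_smul_right, h2y]; simp)
      rw [polar_smul_right, haa'.pair, smul_eq_mul, mul_one, smul_smul, mul_comm] at h5
      exact h5)
  rcases key with h | h
  · exact hc (h c hmem)
  · apply hE
    obtain ⟨v, hv, huv⟩ := exists_partner_rat hQ hR hu hw.sing hu0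
    have hfin : 5 ≤ Module.finrank F V := by
      rw [Module.finrank_eq_card_basis b]; omega
    exact E_le_of_full_pair (good_of_finite hQ hfin) (full_of_mult hQ hR (by omega) h hu hv huv)
      (full_of_mult hQ hR (by omega) h hv hu huv.symm) (by rw [huv.pair]; exact one_ne_zero)

end Cfsg.Agent.H888.Rat
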